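import Cfsg.Agent.Lib.CharDegreesTheory.ItoSolvable
import Cfsg.Agent.Lib.PSolvable.Basic

/-!
# `p`-solvable groups with no degree divisible by `p`
-/

set_option autoImplicit false
set_option linter.style.haveILetI false
set_option linter.unusedSectionVars false

namespace CfsgLib.BrauerCharacters.ItoPSolvable

open Cfsg CfsgLib.CharTheory CfsgLib.Clifford CfsgLib.CharDegreesTheory.SmallDegrees
  CfsgLib.CharDegreesTheory.ItoSolvable Finset

universe u

variable {p : ℕ}

theorem sylow_normal [hp : Fact p.Prime] :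
    ∀ (c : ℕ) (G : Type u) [Group G] [Finite G], Nat.card G = c → IsPSolvable p G → NoDvd p G →
      ∀ P : Sylow p G, (P : Subgroup G).Normal := by
  intro c
  induction c using Nat.strong_induction_on with
  | _ c ih =>
    intro G _ _ hc hsol hdeg P
    classical
    haveI := Fintype.ofFinite G
    by_cases hG1 : (⊤ : Subgroup G) = ⊥
    · rw [show (P : Subgroup G) = ⊥ from le_bot_iff.1 (hG1 ▸ le_top)]
      infer_instance
    haveI : Nontrivial G := by
      by_contra h
      rw [not_nontrivial_iff_subsingleton] at h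
      exact hG1 (Subsingleton.elim _ _)
    obtain ⟨N, hN, hN1, hcase⟩ : ∃ N : Subgroup G, N.Normal ∧ N ≠ ⊥ ∧
        (IsPGroup p N ∨ ¬ p ∣ Nat.card N) := by
      rcases CfsgLib.PSolvable.core_ne_bot hsol with h | h
      · exact ⟨_, inferInstance, h, Or.inl (CfsgLib.Cores.isPGroup_pCore p G)⟩
      · exact ⟨_, inferInstance, h, Or.inr CfsgLib.Cores.not_dvd_card_pPrimeCore⟩
    haveI := hN
    have hlt : Nat.card (G ⧸ N) < c := by
      rw [← hc, Subgroup.card_eq_card_quotient_mul_card_subgroup N]
      exact lt_mul_of_one_lt_right Nat.card_pos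
        (Finite.one_lt_card_iff_nontrivial.2 ((Subgroup.nontrivial_iff_ne_bot N).2 hN1))
    have hbar := ih _ hlt (G ⧸ N) rfl (CfsgLib.PSolvable.isPSolvable_quotient hsol N) (hdeg.quotient N)
      (P.mapSurjective (f := QuotientGroup.mk' N) (QuotientGroup.mk'_surjective N))
    have hnorm : ((P : Subgroup G) ⊔ N).Normal := by
      have h2 : (P : Subgroup G) ⊔ N =
          ((P : Subgroup G).map (QuotientGroup.mk' N)).comap (QuotientGroup.mk' N) := by
        rw [Subgroup.comap_map_eq, QuotientGroup.ker_mk']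
      rw [h2]
      exact Subgroup.Normal.comap hbar _
    haveI := hnorm
    by_cases hqp : IsPGroup p N
    · have hNP : N ≤ (P : Subgroup G) := by
        obtain ⟨P', hP'⟩ := hqp.exists_le_sylow
        obtain ⟨g, hg⟩ := MulAction.exists_smul_eq G P' P
        rw [← hg]
        intro r hr
        refine ⟨g⁻¹ * r * g, hP' (by simpa using hN.conj_mem r hr g⁻¹), ?_⟩
        show g * (g⁻¹ * r * g) * g⁻¹ = r
        group
      rwa [sup_eq_left.2 hNP] at hnorm
    have hNp : ¬ p ∣ Nat.card N := hcase.resolve_left hqp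
    by_cases hPN : (P : Subgroup G) ⊔ N = ⊤
    · have hcen := centralizes hdeg N hNp P hPN
      rw [← Subgroup.normalizer_eq_top_iff, eq_top_iff, ← hPN, sup_le_iff]
      refine ⟨Subgroup.le_normalizer, fun n hn => ?_⟩
      rw [Subgroup.mem_normalizer_iff]
      intro g
      constructor
      · intro hg
        rwa [← hcen n hn g hg, mul_inv_cancel_right]
      · intro hg
        have h1 := hcen n hn _ hg
        rw [inv_mul_cancel_right] at h1
        have h2 : n * g * n⁻¹ = g := (mul_left_cancel h1).symm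
        rwa [h2] at hg
    have hlt' : Nat.card ((P : Subgroup G) ⊔ N : Subgroup G) < c :=
      hc ▸ lt_of_le_of_ne (Subgroup.card_le_card_group _) fun e => hPN ((Subgroup.card_eq_iff_eq_top _).mp e)
    have hPn := ih _ hlt' _ rfl (CfsgLib.PSolvable.isPSolvable_subgroup hsol _) (hdeg.normalSubgroup _) (P.subtype le_sup_left)
    haveI : ((P.subtype (le_sup_left : (P : Subgroup G) ≤ (P : Subgroup G) ⊔ N)) :
        Subgroup ((P : Subgroup G) ⊔ N : Subgroup G)).Characteristic :=
      Sylow.characteristic_of_normal _ hPn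
    have h3 : ((P.subtype (le_sup_left : (P : Subgroup G) ≤ (P : Subgroup G) ⊔ N)) :
        Subgroup ((P : Subgroup G) ⊔ N : Subgroup G)).map ((P : Subgroup G) ⊔ N).subtype =
        (P : Subgroup G) := by
      rw [Sylow.coe_subtype, Subgroup.map_subgroupOf_eq_of_le le_sup_left]
    rw [← h3]
    infer_instance

/-- A `p`-solvable group has a normal abelian Sylow `p`-subgroup iff no degree is divisible by
`p`. -/
theorem iff_noDvd {G : Type u} [Group G] [Finite G] [hp : Fact p.Prime] (hsol : IsPSolvable p G)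
    (P : Sylow p G) : ((P : Subgroup G).Normal ∧ IsMulCommutative P) ↔ NoDvd p G := by
  constructor
  · rintro ⟨hn, hc⟩ χ hd
    haveI := hn
    obtain ⟨d, hd1, hd2⟩ := CfsgLib.CharTheory.exists_degree_dvd_index_of_abelian χ.2
      (P : Subgroup G) (fun x hx y hy => congrArg Subtype.val (hc.is_comm.comm ⟨x, hx⟩ ⟨y, hy⟩))
    refine P.not_dvd_index' Subgroup.index_ne_zero_of_finite ((hd.trans (dvd_of_eq ?_)).trans hd2)
    rw [CfsgLib.CharDegreesTheory.SmallDegrees.charDegree_one] at hd1
    exact_mod_cast hd1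
  · intro h
    have hn := sylow_normal _ G rfl hsol h P
    exact ⟨hn, ⟨⟨fun a b => CfsgLib.CharDegreesTheory.ItoSolvable.comm_of_isPGroup
      (h.normalSubgroup (P : Subgroup G)) P.2 a b⟩⟩⟩

end CfsgLib.BrauerCharacters.ItoPSolvable
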