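import Cfsg.Agent.Lib.CharTheory.Linear
import Cfsg.Agent.Lib.Correspondences.CommutatorCount
import Cfsg.Agent.Lib.Correspondences.Codegree
import Cfsg.Agent.Lib.Cores.FPF
import Cfsg.Agent.Lib.Blocks.DefectZero
import Cfsg.Agent.Lib.BlockLocal.Covering
import Cfsg.Prelude.Def_DegreeGraph
import Mathlib.GroupTheory.SchurZassenhaus

/-!
# Groups whose characters are multiplicative on coprime elements
-/

set_option autoImplicit false
set_option linter.unusedSectionVars false
set_option linter.style.haveILetI false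

namespace CfsgLib.BrauerCharacters.MultValues

open Cfsg CfsgLib.CharTheory Finset
open scoped ComplexConjugate

variable {G : Type*} [Group G] [Finite G]

theorem linear_mul {χ : IrrCharacter G} (h : (χ : G → ℂ) 1 = 1) (x y : G) :
    (χ : G → ℂ) (x * y) = (χ : G → ℂ) x * (χ : G → ℂ) y := by
  obtain ⟨μ, hμ⟩ := exists_hom_of_degree_one χ.2 h
  simp [hμ]

theorem norm_linear {χ : IrrCharacter G} (h : (χ : G → ℂ) 1 = 1) (g : G) :
    (χ : G → ℂ) g * conj ((χ : G → ℂ) g) = 1 := by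
  rw [← IsIrrCharacter.inv χ.2, ← linear_mul h, mul_inv_cancel, h]

/-- The centraliser order is at least the number of linear characters, with equality when the
others vanish. -/
theorem index_add_sum [Fintype (IrrCharacter G)] [DecidableEq ℂ] (g : G) :
    ((commutator G).index : ℝ) + ∑ χ ∈ univ.filter (fun χ : IrrCharacter G => (χ : G → ℂ) 1 ≠ 1),
      Complex.normSq ((χ : G → ℂ) g) = (Nat.card (Subgroup.centralizer ({g} : Set G)) : ℝ) := by
  haveI := Fintype.ofFinite G
  have h := sum_mul_conj g g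
  rw [if_pos (IsConj.refl _),
    ← sum_filter_add_sum_filter_not univ (fun χ : IrrCharacter G => (χ : G → ℂ) 1 = 1),
    sum_congr rfl (g := fun _ => (1 : ℂ)) (fun χ hχ => norm_linear (mem_filter.1 hχ).2 g),
    sum_congr rfl (g := fun χ : IrrCharacter G => (Complex.normSq ((χ : G → ℂ) g) : ℂ))
      (fun χ _ => Complex.mul_conj _), sum_const, nsmul_eq_mul, mul_one,
    ← Fintype.card_subtype, ← Nat.card_eq_fintype_card, card_linear, ← Complex.ofReal_sum,
    ← Complex.ofReal_natCast, ← Complex.ofReal_natCast, ← Complex.ofReal_add, Complex.ofReal_inj] at h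
  exact h

theorem eq_zero_of_card_le {g : G}
    (hg : Nat.card (Subgroup.centralizer ({g} : Set G)) ≤ (commutator G).index)
    {χ : IrrCharacter G} (hχ : (χ : G → ℂ) 1 ≠ 1) : (χ : G → ℂ) g = 0 := by
  classical
  haveI := Fintype.ofFinite (IrrCharacter G)
  have h := index_add_sum g
  have hg' : (Nat.card (Subgroup.centralizer ({g} : Set G)) : ℝ) ≤ (commutator G).index := by
    exact_mod_cast hg
  have h0 := single_le_sum (f := fun ψ : IrrCharacter G => Complex.normSq ((ψ : G → ℂ) g))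
    (s := univ.filter fun ψ : IrrCharacter G => (ψ : G → ℂ) 1 ≠ 1)
    (fun ψ _ => Complex.normSq_nonneg _) (mem_filter.2 ⟨mem_univ χ, hχ⟩)
  exact Complex.normSq_eq_zero.1 (le_antisymm (by linarith) (Complex.normSq_nonneg _))

theorem card_centralizer_eq {g : G}
    (hg : ∀ χ : IrrCharacter G, (χ : G → ℂ) 1 ≠ 1 → (χ : G → ℂ) g = 0) :
    Nat.card (Subgroup.centralizer ({g} : Set G)) = (commutator G).index := by
  classical
  haveI := Fintype.ofFinite (IrrCharacter G)
  have h := index_add_sum g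
  rw [sum_eq_zero (fun χ hχ => by rw [hg χ (mem_filter.1 hχ).2, map_zero]), add_zero] at h
  exact_mod_cast h.symm

theorem charDegree_linear {χ : IrrCharacter G} :
    charDegree (χ : G → ℂ) = 1 ↔ (χ : G → ℂ) 1 = 1 := by
  obtain ⟨d, -, hd⟩ := exists_degree_of_isIrr χ.2
  simp [charDegree, hd]

/-- A character vanishing on the nontrivial elements of a subgroup has degree divisible by its order. -/
theorem card_dvd_of_vanish (H : Subgroup G) (χ : IrrCharacter G)
    (h : ∀ x ∈ H, x ≠ 1 → (χ : G → ℂ) x = 0) : Nat.card H ∣ charDegree (χ : G → ℂ) := by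
  classical
  haveI := Fintype.ofFinite G
  haveI := Fintype.ofFinite (IrrCharacter H)
  obtain ⟨n, -, hn⟩ := BlockLocal.res_eq_sum H χ
  refine ⟨n ⟨_, isIrrCharacter_one⟩, ?_⟩
  have h1 := hn ⟨_, isIrrCharacter_one⟩
  rw [classInner, sum_eq_single (1 : H) (fun x _ hx => by
    rw [h x x.2 (fun e => hx (Subtype.ext e)), zero_mul]) (by simp),
    map_one, mul_one, Subgroup.coe_one,
    inv_mul_eq_iff_eq_mul₀ (Nat.cast_ne_zero.2 Nat.card_pos.ne')] at h1
  obtain ⟨d, -, hd⟩ := exists_degree_of_isIrr χ.2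
  have : (d : ℂ) = ((Nat.card H * n ⟨_, isIrrCharacter_one⟩ : ℕ) : ℂ) := by
    rw [← hd, h1]; push_cast; rfl
  rw [show charDegree (χ : G → ℂ) = d by simp [charDegree, hd]]
  exact_mod_cast this

/-- The hypothesis of the theorem. -/
def Mult (G : Type*) [Group G] : Prop :=
  ∀ (x y : G) (χ : IrrCharacter G), x ≠ 1 → y ≠ 1 →
    (∃ p q a b : ℕ, p.Prime ∧ q.Prime ∧ p ≠ q ∧ orderOf x = p ^ a ∧ orderOf y = q ^ b) →
    (χ : G → ℂ) (x * y) = (χ : G → ℂ) x * (χ : G → ℂ) y

theorem mul_eq_zero_of_mult (h : Mult G) {χ : IrrCharacter G} (hχ : (χ : G → ℂ) 1 ≠ 1)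
    {x y : G} (hx : x ≠ 1) (hy : y ≠ 1) {p q : ℕ} (hp : p.Prime) (hq : q.Prime) (hpq : p ≠ q)
    (hxp : ∃ a, orderOf x = p ^ a) (hyq : ∃ b, orderOf y = q ^ b) :
    (χ : G → ℂ) x * (χ : G → ℂ) y = 0 := by
  haveI := Fintype.ofFinite G
  obtain ⟨a, ha⟩ := hxp
  obtain ⟨b, hb⟩ := hyq
  have hs := Correspondences.sum_conj_mul_eq χ.2 x y
  rw [sum_congr rfl (g := fun _ => (χ : G → ℂ) x * (χ : G → ℂ) y) (fun z _ => by
    rw [h (z * x * z⁻¹) y χ (fun e => hx (conj_eq_one_iff.1 e)) hy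
      ⟨p, q, a, b, hp, hq, hpq, by rw [← ha]; exact (MulAut.conj z).orderOf_eq x, hb⟩,
      IsIrrCharacter.isClassFunction χ.2 x z]), sum_const, card_univ, nsmul_eq_mul,
    ← Nat.card_eq_fintype_card] at hs
  by_contra hne
  apply hχ
  have h1 := apply_one_ne_zero_of_isIrr χ.2
  have hN : (Nat.card G : ℂ) ≠ 0 := Nat.cast_ne_zero.2 Nat.card_pos.ne'
  field_simp at hs
  exact mul_left_cancel₀ hne (by linear_combination hs)

/-- Vanishing on the elements of `r`-power order. -/
def Vanish (χ : IrrCharacter G) (r : ℕ) : Prop :=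
  ∀ x : G, x ≠ 1 → (∃ a, orderOf x = r ^ a) → (χ : G → ℂ) x = 0

theorem ordProj_dvd_of_vanish {χ : IrrCharacter G} {r : ℕ} [Fact r.Prime] (h : Vanish χ r) :
    r ^ (Nat.card G).factorization r ∣ charDegree (χ : G → ℂ) := by
  let R : Sylow r G := default
  rw [← R.card_eq_multiplicity]
  refine card_dvd_of_vanish _ χ fun x hx hx1 => h x hx1 ?_
  obtain ⟨a, ha⟩ := IsPGroup.iff_orderOf.1 R.isPGroup' ⟨x, hx⟩
  exact ⟨a, by rw [← ha, Subgroup.orderOf_mk]⟩

theorem degree_sq_lt {χ : IrrCharacter G} (hχ : (χ : G → ℂ) 1 ≠ 1) :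
    charDegree (χ : G → ℂ) ^ 2 < Nat.card G := by
  classical
  haveI := Fintype.ofFinite (IrrCharacter G)
  haveI := Fintype.ofFinite G
  rw [← Correspondences.sum_charDegree_sq (G := G)]
  refine single_lt_sum (f := fun ψ : IrrCharacter G => charDegree (ψ : G → ℂ) ^ 2) (i := χ) (j := trivIrr G) (fun e => hχ (by rw [← e, trivIrr_apply]))
    (mem_univ _) (mem_univ _) ?_ fun _ _ _ => Nat.zero_le _
  rw [show charDegree (trivIrr G : G → ℂ) = 1 from charDegree_linear.2 (trivIrr_apply _)]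
  norm_num

theorem exists_critical_prime (h : Mult G) {χ : IrrCharacter G} (hχ : (χ : G → ℂ) 1 ≠ 1) :
    ∃ p : ℕ, p.Prime ∧ (∀ r : ℕ, r.Prime → r ≠ p → Vanish χ r) ∧
      (Nat.card G / p ^ (Nat.card G).factorization p) ∣ charDegree (χ : G → ℂ) ∧
      Nat.card G / p ^ (Nat.card G).factorization p < p ^ (Nat.card G).factorization p := by
  have hN : Nat.card G ≠ 0 := Nat.card_pos.ne'
  have hd0 : charDegree (χ : G → ℂ) ≠ 0 := Blocks.charDegree_ne_zero' χ
  have hlt := degree_sq_lt hχ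
  have hfac : ∀ {r : ℕ}, r.Prime → Vanish χ r →
      (Nat.card G).factorization r ≤ (charDegree (χ : G → ℂ)).factorization r := by
    intro r hr hv
    haveI : Fact r.Prime := ⟨hr⟩
    exact (hr.pow_dvd_iff_le_factorization hd0).1 (ordProj_dvd_of_vanish hv)
  obtain ⟨p, hp, hnp⟩ : ∃ p : ℕ, p.Prime ∧ ¬ Vanish χ p := by
    by_contra hall
    push Not at hall
    have : Nat.card G ∣ charDegree (χ : G → ℂ) := by
      rw [← Nat.factorization_le_iff_dvd hN hd0]
      intro r
      by_cases hr : r.Prime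
      · exact hfac hr (hall r hr)
      · simp [Nat.factorization_eq_zero_of_not_prime _ hr]
    have := Nat.le_of_dvd (Nat.pos_of_ne_zero hd0) this
    nlinarith [Nat.pos_of_ne_zero hd0]
  have hv : ∀ r : ℕ, r.Prime → r ≠ p → Vanish χ r := by
    intro r hr hrp y hy hyr
    unfold Vanish at hnp
    push Not at hnp
    obtain ⟨x, hx, hxp, hne⟩ := hnp
    exact (mul_eq_zero.1 (mul_eq_zero_of_mult h hχ hx hy hp hr (Ne.symm hrp) hxp hyr)).resolve_left hne
  have hm0 : Nat.card G / p ^ (Nat.card G).factorization p ≠ 0 := by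
    exact (Nat.ordCompl_pos p hN).ne'
  have hdvd : (Nat.card G / p ^ (Nat.card G).factorization p) ∣ charDegree (χ : G → ℂ) := by
    rw [← Nat.factorization_le_iff_dvd hm0 hd0, Nat.factorization_ordCompl]
    intro r
    rw [Finsupp.erase_apply]
    split_ifs with hr
    · exact Nat.zero_le _
    · by_cases hr' : r.Prime
      · exact hfac hr' (hv r hr' hr)
      · simp [Nat.factorization_eq_zero_of_not_prime _ hr']
  refine ⟨p, hp, hv, hdvd, ?_⟩
  have hle := Nat.le_of_dvd (Nat.pos_of_ne_zero hd0) hdvd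
  have hsplit := Nat.ordProj_mul_ordCompl_eq_self (Nat.card G) p
  set m := Nat.card G / p ^ (Nat.card G).factorization p
  have h1 : m * m ≤ charDegree (χ : G → ℂ) ^ 2 := by rw [sq]; exact Nat.mul_le_mul hle hle
  have h3 : m * m < p ^ (Nat.card G).factorization p * m := by omega
  exact Nat.lt_of_mul_lt_mul_right h3

theorem exists_prime_of_mult (h : Mult G) (hG : ¬ IsMulCommutative G) :
    ∃ p : ℕ, p.Prime ∧ (∀ χ : IrrCharacter G, (χ : G → ℂ) 1 ≠ 1 → ∀ g : G,
      ¬ (∃ a, orderOf g = p ^ a) → (χ : G → ℂ) g = 0) ∧ IsPGroup p (commutator G) := by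
  classical
  have hne : ∃ χ : IrrCharacter G, (χ : G → ℂ) 1 ≠ 1 := by
    by_contra hall
    push Not at hall
    refine hG ⟨⟨fun a b => ?_⟩⟩
    by_contra hab
    obtain ⟨χ, hχ⟩ : ∃ χ : IrrCharacter G, (χ : G → ℂ) (a * b) ≠ (χ : G → ℂ) (b * a) := by
      by_contra hall'
      push Not at hall'
      haveI := Fintype.ofFinite (IrrCharacter G)
      haveI := Fintype.ofFinite G
      have h1 := sum_degree_mul (G := G) (a * b * (b * a)⁻¹)
      rw [if_neg (fun e => hab (mul_inv_eq_one.1 e))] at h1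
      have h2 := sum_degree_mul (G := G) 1
      rw [if_pos rfl] at h2
      rw [sum_congr rfl (fun χ _ => by
        show (χ : G → ℂ) 1 * (χ : G → ℂ) (a * b * (b * a)⁻¹) = (χ : G → ℂ) 1 * (χ : G → ℂ) 1
        rw [linear_mul (hall χ) (a * b), hall' χ, ← linear_mul (hall χ), mul_inv_cancel]), h2] at h1
      exact Nat.card_pos.ne' (by exact_mod_cast h1)
    exact hχ (by rw [linear_mul (hall χ), linear_mul (hall χ), mul_comm])
  obtain ⟨χ₀, hχ₀⟩ := hne
  obtain ⟨p, hp, -, -, hlt₀⟩ := exists_critical_prime h hχ₀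
  haveI : Fact p.Prime := ⟨hp⟩
  have hN : Nat.card G ≠ 0 := Nat.card_pos.ne'
  have hall : ∀ χ : IrrCharacter G, (χ : G → ℂ) 1 ≠ 1 →
      (∀ r : ℕ, r.Prime → r ≠ p → Vanish χ r) ∧
      (Nat.card G / p ^ (Nat.card G).factorization p) ∣ charDegree (χ : G → ℂ) := by
    intro χ hχ
    obtain ⟨q, hq, hv, hd, hlt⟩ := exists_critical_prime h hχ
    by_cases hqp : q = p
    · exact ⟨hqp ▸ hv, hqp ▸ hd⟩
    exfalso
    have h1 : q ^ (Nat.card G).factorization q ∣ Nat.card G / p ^ (Nat.card G).factorization p :=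
      (((Nat.coprime_primes hq hp).2 hqp).pow _ _).dvd_of_dvd_mul_left
        (by rw [Nat.ordProj_mul_ordCompl_eq_self]; exact Nat.ordProj_dvd _ _)
    have h2 : p ^ (Nat.card G).factorization p ∣ Nat.card G / q ^ (Nat.card G).factorization q :=
      (((Nat.coprime_primes hp hq).2 (Ne.symm hqp)).pow _ _).dvd_of_dvd_mul_left
        (by rw [Nat.ordProj_mul_ordCompl_eq_self]; exact Nat.ordProj_dvd _ _)
    have h3 := Nat.le_of_dvd (Nat.ordCompl_pos p hN) h1
    have h4 := Nat.le_of_dvd (Nat.ordCompl_pos q hN) h2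
    omega
  refine ⟨p, hp, fun χ hχ g hg => ?_, ?_⟩
  · obtain ⟨r, hr, hrg, hrp⟩ : ∃ r : ℕ, r.Prime ∧ r ∣ orderOf g ∧ r ≠ p := by
      by_contra hall'
      push Not at hall'
      exact hg ⟨_, Nat.eq_prime_pow_of_unique_prime_dvd (orderOf_pos g).ne' fun {d} hd hdg => hall' d hd hdg⟩
    haveI : Fact r.Prime := ⟨hr⟩
    refine Blocks.irr_eq_zero_of_full χ ((Blocks.not_dvd_card_div_charDegree_iff χ).2 ?_) hrg
    exact le_antisymm ((Nat.factorization_le_iff_dvd (Blocks.charDegree_ne_zero' χ) hN).2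
      (Blocks.charDegree_dvd_card χ) r)
      ((hr.pow_dvd_iff_le_factorization (Blocks.charDegree_ne_zero' χ)).1
        (ordProj_dvd_of_vanish ((hall χ hχ).1 r hr hrp)))
  · haveI := Fintype.ofFinite (IrrCharacter G)
    have hsum := Correspondences.sum_charDegree_sq (G := G)
    rw [← sum_filter_add_sum_filter_not univ (fun χ : IrrCharacter G => (χ : G → ℂ) 1 = 1),
      sum_congr rfl (g := fun _ => 1) (fun χ hχ => by
        rw [charDegree_linear.2 (mem_filter.1 hχ).2, one_pow]), sum_const, smul_eq_mul, mul_one,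
      ← Fintype.card_subtype, ← Nat.card_eq_fintype_card, card_linear] at hsum
    have hm : Nat.card G / p ^ (Nat.card G).factorization p ∣ (commutator G).index := by
      rw [Nat.dvd_add_iff_left (n := ∑ χ ∈ univ.filter (fun χ : IrrCharacter G => ¬(χ : G → ℂ) 1 = 1),
        charDegree (χ : G → ℂ) ^ 2)
        (dvd_sum fun χ hχ => dvd_pow (hall χ (mem_filter.1 hχ).2).2 two_ne_zero), hsum]
      exact Nat.ordCompl_dvd _ _
    obtain ⟨t, ht⟩ := hm
    have hcm := Subgroup.card_mul_index (commutator G)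
    have hd : Nat.card (commutator G) ∣ p ^ (Nat.card G).factorization p := by
      refine ⟨t, Nat.eq_of_mul_eq_mul_right (Nat.ordCompl_pos p hN) ?_⟩
      rw [Nat.ordProj_mul_ordCompl_eq_self]
      conv_lhs => rw [← hcm, ht]
      ring
    obtain ⟨k, -, hk⟩ := (Nat.dvd_prime_pow hp).1 hd
    exact IsPGroup.of_card hk

/-- The structure forced by multiplicativity. -/
theorem structure_of_mult (h : Mult G) (hG : ¬ IsMulCommutative G)
    (hnp : ¬ ∃ p : ℕ, p.Prime ∧ IsPGroup p G) :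
    ∃ (p : ℕ) (_ : Fact p.Prime) (P : Sylow p G) (A : Subgroup G), (P : Subgroup G).Normal ∧
      IsCyclic ↥A ∧ A ≠ ⊥ ∧ (Nat.card ↥A).Coprime p ∧ A ⊔ (P : Subgroup G) = ⊤ ∧
      IsMulCommutative ↥((P : Subgroup G) ⊓ Subgroup.centralizer (A : Set G)) ∧
      (⁅A, (P : Subgroup G)⁆).Normal ∧
      ((P : Subgroup G) ⊓ Subgroup.centralizer (A : Set G)) ⊔ ⁅A, (P : Subgroup G)⁆ = (P : Subgroup G) ∧
      ((P : Subgroup G) ⊓ Subgroup.centralizer (A : Set G)) ⊓ ⁅A, (P : Subgroup G)⁆ = ⊥ ∧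
      ∀ a ∈ A, a ≠ 1 → ∀ d ∈ ⁅A, (P : Subgroup G)⁆, a * d = d * a → d = 1 := by
  classical
  obtain ⟨p, hp, hvan, hG'⟩ := exists_prime_of_mult h hG
  haveI : Fact p.Prime := ⟨hp⟩
  let P : Sylow p G := default
  obtain ⟨Q, hQ⟩ := hG'.exists_le_sylow
  have hDP : commutator G ≤ (P : Subgroup G) := by
    obtain ⟨g, hg⟩ := MulAction.exists_smul_eq G Q P
    intro x hx
    rw [← hg, Sylow.coe_subgroup_smul, Subgroup.mem_pointwise_smul_iff_inv_smul_mem]
    apply hQ
    have := (show (commutator G).Normal from inferInstance).conj_mem x hx g⁻¹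
    simpa [MulAut.smul_def] using this
  haveI hPn : (P : Subgroup G).Normal := Subgroup.Normal.of_commutator_le G hDP
  have hcopP : (Nat.card (P : Subgroup G)).Coprime (P : Subgroup G).index := P.card_coprime_index
  obtain ⟨A, hA⟩ := Subgroup.exists_right_complement'_of_coprime hcopP
  have hAidx : (P : Subgroup G).index = Nat.card A := hA.symm.index_eq_card
  have hAcop : (Nat.card A).Coprime p := by
    rw [← hAidx, Nat.coprime_comm, hp.coprime_iff_not_dvd]
    exact P.not_dvd_index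
  have hA1 : A ≠ ⊥ := fun e => hnp ⟨p, hp, by
    refine IsPGroup.of_card (n := (Nat.card G).factorization p) ?_
    rw [← P.card_eq_multiplicity, ← Subgroup.card_mul_index (P : Subgroup G), hAidx, e,
      Subgroup.card_bot, mul_one]⟩
  have hap : ∀ a ∈ A, ∀ k, orderOf a = p ^ k → a = 1 := fun a ha k hk => by
    rw [← orderOf_eq_one_iff]
    exact Nat.eq_one_of_dvd_coprimes (hAcop.pow_right k) (Subgroup.orderOf_dvd_natCard A ha)
      (dvd_of_eq hk)
  have hC : ∀ a ∈ A, a ≠ 1 → Nat.card (Subgroup.centralizer ({a} : Set G)) = (commutator G).index :=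
    fun a ha ha1 => card_centralizer_eq fun χ hχ => hvan χ hχ a fun ⟨k, hk⟩ => ha1 (hap a ha k hk)
  have hcomm : ∀ x y : G, x * y * x⁻¹ * y⁻¹ ∈ commutator G := fun x y => by
    rw [commutator_def]
    exact Subgroup.commutator_mem_commutator (Subgroup.mem_top x) (Subgroup.mem_top y)
  have hAab : IsMulCommutative A := ⟨⟨fun a b => Subtype.ext (by
    have h1 : (a : G) * b * (a : G)⁻¹ * (b : G)⁻¹ = 1 := by
      refine (Subgroup.disjoint_def.1 hA.disjoint) (hDP (hcomm _ _)) ?_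
      exact A.mul_mem (A.mul_mem (A.mul_mem a.2 b.2) (A.inv_mem a.2)) (A.inv_mem b.2)
    show (a : G) * b = b * a
    rw [← mul_inv_eq_one, ← h1]; group)⟩⟩
  -- the class of `a` is the coset of the derived group
  have hfpf : ∀ a ∈ A, a ≠ 1 → ∀ d ∈ commutator G, a * d = d * a → d = 1 := by
    intro a ha ha1 d hd hcd
    have hconj : IsConj a (a * d) := by
      have h1 : {x : G | IsConj a x} ⊆ (fun d => a * d) '' (commutator G : Set G) := by
        intro y hy
        obtain ⟨g, hg⟩ := isConj_iff.1 hy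
        refine ⟨a⁻¹ * y, ?_, by simp⟩
        rw [← hg]
        have := (show (commutator G).Normal from inferInstance).conj_mem _ (hcomm g a) a⁻¹
        show a⁻¹ * (g * a * g⁻¹) ∈ commutator G
        convert this using 1
        group
      have h2 : Nat.card {x : G // IsConj a x} = Nat.card (commutator G) := by
        apply Nat.eq_of_mul_eq_mul_right (show 0 < (commutator G).index from Nat.pos_of_ne_zero Subgroup.index_ne_zero_of_finite)
        conv_lhs => rw [← hC a ha ha1]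
        rw [card_isConj, mul_comm, Subgroup.card_mul_index, Subgroup.card_mul_index]
      have h3 : {x : G | IsConj a x} = (fun d => a * d) '' (commutator G : Set G) := by
        refine Set.eq_of_subset_of_ncard_le h1 (le_of_eq ?_) (Set.toFinite _)
        rw [Set.ncard_image_of_injective _ (mul_right_injective a), ← Nat.card_coe_set_eq,
          ← Nat.card_coe_set_eq]
        exact h2.symm
      have h4 : a * d ∈ {x : G | IsConj a x} := h3 ▸ Set.mem_image_of_mem _ hd
      exact h4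
    have ho : orderOf (a * d) = orderOf a := by
      obtain ⟨g, hg⟩ := isConj_iff.1 hconj
      rw [← hg]; exact (MulAut.conj g).orderOf_eq a
    obtain ⟨k, hk⟩ := IsPGroup.iff_orderOf.1 hG' ⟨d, hd⟩
    rw [Subgroup.orderOf_mk] at hk
    have hco : (orderOf a).Coprime (orderOf d) := by
      rw [hk]; exact (hAcop.coprime_dvd_left (Subgroup.orderOf_dvd_natCard A ha)).pow_right k
    rw [Commute.orderOf_mul_eq_mul_orderOf_of_coprime hcd hco] at ho
    exact orderOf_eq_one_iff.1 ((mul_eq_left₀ (orderOf_pos a).ne').1 ho)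
  have hD : ⁅A, (P : Subgroup G)⁆ = commutator G := by
    refine le_antisymm (by rw [commutator_def]; exact Subgroup.commutator_mono le_top le_top) ?_
    obtain ⟨a, ha, ha1⟩ : ∃ a ∈ A, a ≠ 1 := by
      simpa [Subgroup.ne_bot_iff_exists_ne_one] using hA1
    intro x hx
    let f : commutator G → commutator G := fun d => ⟨a * d * a⁻¹ * (d : G)⁻¹, hcomm a d⟩
    have hf : Function.Injective f := by
      intro d d' e
      have e' : a * (d : G) * a⁻¹ * (d : G)⁻¹ = a * d' * a⁻¹ * (d' : G)⁻¹ := congrArg Subtype.val e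
      have hc : a * ((d' : G)⁻¹ * d) = (d' : G)⁻¹ * d * a := by
        calc a * ((d' : G)⁻¹ * d) = a * (d' : G)⁻¹ * a⁻¹ * (a * d * a⁻¹ * (d : G)⁻¹) * d * a := by group
          _ = (d' : G)⁻¹ * d * a := by rw [e']; group
      exact Subtype.ext (inv_mul_eq_one.1 (hfpf a ha ha1 _
        ((commutator G).mul_mem ((commutator G).inv_mem d'.2) d.2) hc)).symm
    obtain ⟨d, hd⟩ := (Finite.injective_iff_surjective.1 hf) ⟨x, hx⟩
    rw [show x = a * (d : G) * a⁻¹ * (d : G)⁻¹ from (congrArg Subtype.val hd).symm]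
    exact Subgroup.commutator_mem_commutator ha (hDP d.2)
  obtain ⟨a₀, ha₀, ha₀1⟩ : ∃ a ∈ A, a ≠ 1 := by
    simpa [Subgroup.ne_bot_iff_exists_ne_one] using hA1
  set Ca := (P : Subgroup G) ⊓ Subgroup.centralizer ({a₀} : Set G) with hCa
  have hCC : (P : Subgroup G) ⊓ Subgroup.centralizer (A : Set G) = Ca := by
    refine le_antisymm (inf_le_inf_left _ (Subgroup.centralizer_le (by simpa using ha₀))) fun z hz => ?_
    obtain ⟨hzP, hza⟩ := Subgroup.mem_inf.1 hz
    refine Subgroup.mem_inf.2 ⟨hzP, Subgroup.mem_centralizer_iff.2 fun b hb => ?_⟩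
    have hza' := Subgroup.mem_centralizer_singleton_iff.1 hza
    have hab : b * a₀ = a₀ * b :=
      congrArg Subtype.val (hAab.is_comm.comm (⟨b, hb⟩ : A) ⟨a₀, ha₀⟩)
    have h1 : b * z * b⁻¹ * z⁻¹ = 1 := hfpf a₀ ha₀ ha₀1 _ (hcomm b z) (by
      have e1 : a₀ * b⁻¹ = b⁻¹ * a₀ := (Commute.inv_right (show Commute a₀ b from hab.symm)).eq
      have e2 : a₀ * z⁻¹ = z⁻¹ * a₀ := (Commute.inv_right (show Commute a₀ z from hza'.symm)).eq
      calc a₀ * (b * z * b⁻¹ * z⁻¹) = (a₀ * b) * z * b⁻¹ * z⁻¹ := by group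
        _ = b * (a₀ * z) * b⁻¹ * z⁻¹ := by rw [← hab]; group
        _ = b * z * (a₀ * b⁻¹) * z⁻¹ := by rw [← hza']; group
        _ = b * z * b⁻¹ * (a₀ * z⁻¹) := by rw [e1]; group
        _ = b * z * b⁻¹ * z⁻¹ * a₀ := by rw [e2]; group)
    exact (mul_inv_eq_iff_eq_mul.1 (mul_inv_eq_one.1 h1))
  have hdisj : Ca ⊓ commutator G = ⊥ := by
    rw [eq_bot_iff]
    intro z hz
    obtain ⟨hzC, hzD⟩ := Subgroup.mem_inf.1 hz
    exact hfpf a₀ ha₀ ha₀1 z hzD (Subgroup.mem_centralizer_singleton_iff.1 (Subgroup.mem_inf.1 hzC).2).symm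
  have hsup : Ca ⊔ commutator G = (P : Subgroup G) := by
    refine Subgroup.eq_of_le_of_card_ge (sup_le inf_le_left hDP) ?_
    -- counting inside the centraliser of `a₀`
    have h1 : Nat.card (Subgroup.centralizer ({a₀} : Set G)) ≤ Nat.card A * Nat.card Ca := by
      have hmem : ∀ x : Subgroup.centralizer ({a₀} : Set G), ∃ b : A, (b : G)⁻¹ * x ∈ Ca := by
        intro x
        obtain ⟨u, hu, b, hb, hub⟩ := Subgroup.mem_sup_of_normal_left.1
          (show (x : G) ∈ (P : Subgroup G) ⊔ A by rw [hA.sup_eq_top]; trivial)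
        have hbc : (⟨b, hb⟩ : A) = ⟨b, hb⟩ := rfl
        refine ⟨⟨b, hb⟩, Subgroup.mem_inf.2 ⟨?_, ?_⟩⟩
        · rw [← hub]
          have := hPn.conj_mem u hu b⁻¹
          show b⁻¹ * (u * b) ∈ (P : Subgroup G)
          convert this using 1
          group
        · refine Subgroup.mul_mem _ (Subgroup.inv_mem _ ?_) x.2
          rw [Subgroup.mem_centralizer_singleton_iff]
          exact congrArg Subtype.val (hAab.is_comm.comm (⟨b, hb⟩ : A) ⟨a₀, ha₀⟩)
      choose b hb using hmem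
      rw [← Nat.card_prod]
      refine Nat.card_le_card_of_injective (fun x => (b x, (⟨_, hb x⟩ : Ca))) fun x y e => ?_
      rw [Prod.mk.injEq, Subtype.mk.injEq] at e
      obtain ⟨e1, e2⟩ := e
      have e3 : (b x : G)⁻¹ * x = (b y : G)⁻¹ * y := congrArg Subtype.val e2
      rw [e1] at e3
      exact Subtype.ext (mul_left_cancel e3)
    rw [hC a₀ ha₀ ha₀1] at h1
    have h2 : Nat.card Ca * Nat.card (commutator G) ≤ Nat.card ↥(Ca ⊔ commutator G) := by
      rw [← Nat.card_prod]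
      refine Nat.card_le_card_of_injective (fun x => (⟨(x.1 : G) * x.2, Subgroup.mul_mem_sup x.1.2 x.2.2⟩ : ↥(Ca ⊔ commutator G))) fun x y e => ?_
      have e' : (x.1 : G) * x.2 = y.1 * y.2 := congrArg Subtype.val e
      exact Prod.ext_iff.2 ⟨(Subgroup.disjoint_iff_mul_eq_one.1 (disjoint_iff.2 hdisj)
          (Ca.mul_mem (Ca.inv_mem y.1.2) x.1.2) ((commutator G).mul_mem x.2.2 ((commutator G).inv_mem y.2.2))
          (by calc (y.1 : G)⁻¹ * x.1 * (x.2 * (y.2 : G)⁻¹) = (y.1 : G)⁻¹ * (x.1 * x.2) * (y.2 : G)⁻¹ := by group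
                _ = 1 := by rw [e']; group)).1 |> (fun t => Subtype.ext (inv_mul_eq_one.1 t).symm),
        (Subgroup.disjoint_iff_mul_eq_one.1 (disjoint_iff.2 hdisj)
          (Ca.mul_mem (Ca.inv_mem y.1.2) x.1.2) ((commutator G).mul_mem x.2.2 ((commutator G).inv_mem y.2.2))
          (by calc (y.1 : G)⁻¹ * x.1 * (x.2 * (y.2 : G)⁻¹) = (y.1 : G)⁻¹ * (x.1 * x.2) * (y.2 : G)⁻¹ := by group
                _ = 1 := by rw [e']; group)).2 |> (fun t => Subtype.ext (mul_inv_eq_one.1 t))⟩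
    have h3 := Subgroup.card_mul_index (commutator G)
    have h4 := Subgroup.card_mul_index (P : Subgroup G)
    rw [hAidx] at h4
    have h5 : Nat.card (P : Subgroup G) * Nat.card A ≤
        Nat.card A * (Nat.card Ca * Nat.card (commutator G)) := by
      rw [h4, ← h3, ← mul_assoc, mul_comm (Nat.card (commutator G))]
      exact Nat.mul_le_mul_right _ h1
    rw [mul_comm (Nat.card A)] at h5
    exact le_trans (Nat.le_of_mul_le_mul_right h5 Nat.card_pos) h2
  refine ⟨p, ⟨hp⟩, P, A, hPn, ?_, hA1, hAcop, by rw [sup_comm]; exact hA.sup_eq_top, ?_,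
    hD ▸ inferInstance, by rw [hCC, hD, hsup], by rw [hCC, hD, hdisj], fun a ha ha1 d hd => hfpf a ha ha1 d (hD ▸ hd)⟩
  · haveI := hAab
    refine Cores.isCyclic_of_fpf (V := commutator G) ?_ ?_ fun a ha ha1 => ?_
    · intro e
      refine hG ⟨⟨fun x y => ?_⟩⟩
      have := hcomm x y
      rw [e, Subgroup.mem_bot, mul_inv_eq_one, mul_inv_eq_iff_eq_mul] at this
      exact this
    · intro x _
      rw [Subgroup.normalizer_eq_top]; trivial
    · rw [eq_bot_iff]
      intro z hz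
      obtain ⟨hzD, hzC⟩ := Subgroup.mem_inf.1 hz
      exact hfpf a ha ha1 z hzD (Subgroup.mem_centralizer_singleton_iff.1 hzC).symm
  · rw [hCC]
    refine ⟨⟨fun z w => Subtype.ext ?_⟩⟩
    have hmem : (z : G) * w * (z : G)⁻¹ * (w : G)⁻¹ ∈ Ca ⊓ commutator G := Subgroup.mem_inf.2
      ⟨Ca.mul_mem (Ca.mul_mem (Ca.mul_mem z.2 w.2) (Ca.inv_mem z.2)) (Ca.inv_mem w.2), hcomm _ _⟩
    rw [hdisj, Subgroup.mem_bot, mul_inv_eq_one, mul_inv_eq_iff_eq_mul] at hmem
    exact hmem

/-- The converse. -/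
theorem mult_of_structure {p : ℕ} [Fact p.Prime] (P : Sylow p G) (A : Subgroup G)
    [hP : (P : Subgroup G).Normal] (hAc : IsCyclic ↥A) (hcop : (Nat.card ↥A).Coprime p)
    (htop : A ⊔ (P : Subgroup G) = ⊤)
    (hCab : IsMulCommutative ↥((P : Subgroup G) ⊓ Subgroup.centralizer (A : Set G)))
    [hDn : (⁅A, (P : Subgroup G)⁆).Normal]
    (hsup : ((P : Subgroup G) ⊓ Subgroup.centralizer (A : Set G)) ⊔ ⁅A, (P : Subgroup G)⁆ = (P : Subgroup G))
    (hfpf : ∀ a ∈ A, a ≠ 1 → ∀ d ∈ ⁅A, (P : Subgroup G)⁆, a * d = d * a → d = 1) : Mult G := by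
  classical
  set D := ⁅A, (P : Subgroup G)⁆ with hD
  set C := (P : Subgroup G) ⊓ Subgroup.centralizer (A : Set G) with hC
  have hAab : IsMulCommutative A := IsCyclic.isMulCommutative
  have hdec : ∀ g : G, ∃ a ∈ A, ∃ c ∈ C, ∃ d ∈ D, g = a * c * d := by
    intro g
    obtain ⟨a, ha, u, hu, rfl⟩ := Subgroup.mem_sup_of_normal_right.1
      (show g ∈ A ⊔ (P : Subgroup G) by rw [htop]; trivial)
    rw [← hsup] at hu
    obtain ⟨c, hc, d, hd, rfl⟩ := Subgroup.mem_sup_of_normal_right.1 hu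
    exact ⟨a, ha, c, hc, d, hd, by rw [mul_assoc]⟩
  have hAC : ∀ a ∈ A, ∀ c ∈ C, a * c = c * a := fun a ha c hc =>
    Subgroup.mem_centralizer_iff.1 (Subgroup.mem_inf.1 hc).2 a ha
  have hle : commutator G ≤ D := by
    rw [commutator_def, Subgroup.commutator_le]
    intro x _ y _
    obtain ⟨a, ha, c, hc, d, hd, rfl⟩ := hdec x
    obtain ⟨a', ha', c', hc', d', hd', rfl⟩ := hdec y
    rw [← QuotientGroup.eq_one_iff, ← QuotientGroup.mk'_apply, map_commutatorElement,
      commutatorElement_eq_one_iff_mul_comm, map_mul, map_mul, map_mul (QuotientGroup.mk' D) (a' * c'),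
      show QuotientGroup.mk' D d = 1 from (QuotientGroup.eq_one_iff d).2 hd,
      show QuotientGroup.mk' D d' = 1 from (QuotientGroup.eq_one_iff d').2 hd', mul_one, mul_one,
      ← map_mul, ← map_mul, ← map_mul]
    have e1 : a * a' = a' * a := congrArg Subtype.val (hAab.is_comm.comm (⟨a, ha⟩ : A) ⟨a', ha'⟩)
    have e2 : c * c' = c' * c := congrArg Subtype.val (hCab.is_comm.comm (⟨c, hc⟩ : C) ⟨c', hc'⟩)
    congr 1
    calc a * c * (a' * c') = a * (c * a') * c' := by group
      _ = (a * a') * (c * c') := by rw [← hAC a' ha' c hc]; group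
      _ = a' * (a * c') * c := by rw [e1, e2]; group
      _ = a' * c' * (a * c) := by rw [hAC a ha c' hc']; group
  -- non-linear characters vanish outside `P`
  have hvan : ∀ g, g ∉ (P : Subgroup G) → ∀ χ : IrrCharacter G, (χ : G → ℂ) 1 ≠ 1 → (χ : G → ℂ) g = 0 := by
    intro g hg χ hχ
    refine eq_zero_of_card_le ?_ hχ
    obtain ⟨a, ha, c, hc, d, hd, hgd⟩ := hdec g
    have hDP : D ≤ (P : Subgroup G) := hsup ▸ le_sup_right
    have ha1 : a ≠ 1 := fun e => hg (by
      rw [hgd, e, one_mul]; exact Subgroup.mul_mem _ (Subgroup.mem_inf.1 hc).1 (hDP hd))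
    have hfix : ∀ e ∈ D, e * (a * c) = a * c * e → e = 1 := by
      intro e he hcm
      set k := Nat.card (P : Subgroup G) with hk
      have hpow : (a * c) ^ k = a ^ k := by
        rw [Commute.mul_pow (hAC a ha c hc), show c ^ k = 1 from orderOf_dvd_iff_pow_eq_one.1
          (Subgroup.orderOf_dvd_natCard _ (Subgroup.mem_inf.1 hc).1), mul_one]
      refine hfpf (a ^ k) (A.pow_mem ha k) (fun e1 => ha1 (orderOf_eq_one_iff.1 ?_)) e he ?_
      · refine Nat.eq_one_of_dvd_coprimes ?_ (Subgroup.orderOf_dvd_natCard A ha)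
          (orderOf_dvd_iff_pow_eq_one.2 e1)
        rw [hk, P.card_eq_multiplicity]
        exact hcop.pow_right _
      · rw [← hpow]
        exact ((show Commute e (a * c) from hcm).pow_right k).eq.symm
    let f : D → D := fun x => ⟨(a * c)⁻¹ * (x : G) * (a * c) * (x : G)⁻¹,
      D.mul_mem (by simpa using hDn.conj_mem x x.2 (a * c)⁻¹) (D.inv_mem x.2)⟩
    have hf : Function.Injective f := by
      intro x y e
      have e' : (a * c)⁻¹ * (x : G) * (a * c) * (x : G)⁻¹ = (a * c)⁻¹ * y * (a * c) * (y : G)⁻¹ :=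
        congrArg Subtype.val e
      refine Subtype.ext (inv_mul_eq_one.1 (hfix _ (D.mul_mem (D.inv_mem y.2) x.2) ?_)).symm
      calc (y : G)⁻¹ * x * (a * c) =
          (y : G)⁻¹ * (a * c) * ((a * c)⁻¹ * x * (a * c) * (x : G)⁻¹) * x := by group
        _ = a * c * ((y : G)⁻¹ * x) := by rw [e']; group
    obtain ⟨x, hx⟩ := (Finite.injective_iff_surjective.1 hf) ⟨d, hd⟩
    have hx' : (a * c)⁻¹ * (x : G) * (a * c) * (x : G)⁻¹ = d := congrArg Subtype.val hx
    have hconj : g = (x : G) * (a * c) * (x : G)⁻¹ := by rw [hgd, ← hx']; group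
    have hint : ∀ e ∈ Subgroup.centralizer ({g} : Set G), e ∈ D → e = 1 := by
      intro e he heD
      have h1 := Subgroup.mem_centralizer_singleton_iff.1 he
      have h2 := hfix ((x : G)⁻¹ * e * x) (by simpa using hDn.conj_mem e heD (x : G)⁻¹) (by
        rw [hconj] at h1
        calc (x : G)⁻¹ * e * x * (a * c) = (x : G)⁻¹ * (e * (x * (a * c) * (x : G)⁻¹)) * x := by group
          _ = a * c * ((x : G)⁻¹ * e * x) := by rw [h1]; group)
      calc e = (x : G) * ((x : G)⁻¹ * e * x) * (x : G)⁻¹ := by group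
        _ = 1 := by rw [h2]; group
    calc Nat.card (Subgroup.centralizer ({g} : Set G)) ≤ Nat.card (G ⧸ D) := by
          refine Nat.card_le_card_of_injective (fun e => (QuotientGroup.mk' D) (e : G)) fun e e' he => ?_
          have hm : (e : G)⁻¹ * e' ∈ D := QuotientGroup.eq.1 he
          exact Subtype.ext (inv_mul_eq_one.1
            (hint _ (Subgroup.mul_mem _ (Subgroup.inv_mem _ e.2) e'.2) hm))
      _ = D.index := (Subgroup.index_eq_card D).symm
      _ ≤ (commutator G).index :=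
          Nat.le_of_dvd (Nat.pos_of_ne_zero Subgroup.index_ne_zero_of_finite) (Subgroup.index_dvd_of_le hle)
  intro x y χ hx hy hpq
  by_cases hχ : (χ : G → ℂ) 1 = 1
  · exact linear_mul hχ x y
  obtain ⟨q, r, i, j, hq, hr, hqr, hxi, hyj⟩ := hpq
  have hin : ∀ {z : G} {s k : ℕ}, s.Prime → z ≠ 1 → orderOf z = s ^ k → z ∈ (P : Subgroup G) → s = p := by
    intro z s k hs hz hzk hzP
    obtain ⟨n, hn⟩ := IsPGroup.iff_orderOf.1 P.isPGroup' ⟨z, hzP⟩
    rw [Subgroup.orderOf_mk, hzk] at hn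
    have hk : k ≠ 0 := fun e => hz (orderOf_eq_one_iff.1 (by rw [hzk, e, pow_zero]))
    exact (Nat.prime_dvd_prime_iff_eq hs Fact.out).1 (hs.dvd_of_dvd_pow (hn ▸ dvd_pow_self s hk))
  have hxy : x * y ∉ (P : Subgroup G) := by
    intro hm
    have he : QuotientGroup.mk' (P : Subgroup G) x = (QuotientGroup.mk' (P : Subgroup G) y)⁻¹ := by
      rw [eq_inv_iff_mul_eq_one, ← map_mul]
      exact (QuotientGroup.eq_one_iff _).2 hm
    have h1 : orderOf (QuotientGroup.mk' (P : Subgroup G) x) = 1 := by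
      refine Nat.eq_one_of_dvd_coprimes (((Nat.coprime_primes hq hr).2 hqr).pow i j) ?_ ?_
      · rw [← hxi]; exact orderOf_map_dvd _ x
      · rw [he, orderOf_inv, ← hyj]; exact orderOf_map_dvd _ y
    have hxP : x ∈ (P : Subgroup G) := (QuotientGroup.eq_one_iff _).1 (orderOf_eq_one_iff.1 h1)
    have hyP : y ∈ (P : Subgroup G) := ((P : Subgroup G).mul_mem_cancel_left hxP).1 hm
    exact hqr ((hin hq hx hxi hxP).trans (hin hr hy hyj hyP).symm)
  rw [hvan _ hxy χ hχ]
  symm
  by_cases hxP : x ∈ (P : Subgroup G)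
  · have hyP : y ∉ (P : Subgroup G) := fun hyP => hqr ((hin hq hx hxi hxP).trans (hin hr hy hyj hyP).symm)
    rw [hvan _ hyP χ hχ, mul_zero]
  · rw [hvan _ hxP χ hχ, zero_mul]

end CfsgLib.BrauerCharacters.MultValues
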