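import Cfsg.Agent.Lib.BrauerCharacters.AbelianSylowColumns
import Cfsg.Agent.Lib.BrauerCharacters.ClassMul
import Cfsg.Agent.Lib.BlockLocal.KleinFour
import Cfsg.Agent.Lib.Correspondences.CharKer

/-!
# Pairs of involutions and a `p`-section

If no element of the coset `y K` is a product of two conjugates of an involution `t`, the sum
`∑ χ(t)² χ(y) / χ(1)` over the principal block vanishes; and the arithmetic consequence for four
characters.
-/

set_option autoImplicit false

namespace CfsgLib.BrauerCharacters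

open Cfsg CfsgLib.CharTheory CfsgLib.Blocks Finset
open scoped ComplexConjugate Classical

variable {G : Type*} [Group G] [Fintype G] {p : ℕ} [hp : Fact p.Prime]
variable {M : Ideal AlgInt} [M.IsPrime]

theorem sum_subgroup_eq_zero_of_notMem {H : Type*} [Group H] [Fintype H] (hM : IsPModular p M)
    (K : Subgroup H) [K.Normal] (hK : ¬ p ∣ Nat.card K)
    (hKreg : ∀ h : H, ¬ p ∣ orderOf h → h ∈ K) {y : H} {n : ℕ} (hy : orderOf y = p ^ n)
    (hy1 : y ≠ 1) (hyc : ∀ h : H, Commute y h) {ξ : IrrCharacter H}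
    (hξ : ξ ∉ principalBlock M H) : ∑ k : H, (if k ∈ K then (ξ : H → ℂ) k else 0) = 0 := by
  haveI := Fintype.ofFinite (IrrCharacter H)
  have hBP := finite_isPBlock_principalBlock (H := H) M
  have hker : ∀ ψ ∈ principalBlock M H, ∀ k ∈ K, (ψ : H → ℂ) k = (ψ : H → ℂ) 1 := by
    intro ψ hψ k hk
    have h1 := Involutions.apply_mul_eq_apply hM hψ hy hy1 K
      (fun k _ => Subgroup.mem_centralizer_singleton_iff.2 (hyc k).eq.symm)
      (fun c _ x hx => Subgroup.Normal.conj_mem inferInstance x hx c) hK hk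
    obtain ⟨h2, h3⟩ := centralVal_spec ψ hyc
    rw [h3 k] at h1
    have h4 := h3 1
    rw [mul_one] at h4
    rw [h4] at h1
    refine mul_left_cancel₀ ?_ h1
    intro h0
    have h5 := (norm_eq_one_of_pow_eq_one' (isOfFinOrder_of_finite _).orderOf_pos.ne' h2)
    rw [h0, norm_zero] at h5
    exact zero_ne_one h5
  set lam : ℕ := ∑ ψ ∈ blockFinset (principalBlock M H), (charDegree (ψ : H → ℂ)) ^ 2 with hlam
  have hlam0 : (lam : ℂ) ≠ 0 := by
    refine Nat.cast_ne_zero.2 fun h => ?_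
    have h1 := sum_charDegree_sq_principal hM K hK hKreg hy hy1 hyc
    rw [← hlam, h, zero_mul] at h1
    exact Nat.card_pos.ne h1
  have hfun : ∀ h : H, (if h ∈ K then (lam : ℂ) else 0) =
      ∑ ψ ∈ blockFinset (principalBlock M H), (ψ : H → ℂ) 1 * conj ((ψ : H → ℂ) h) := by
    intro h
    split_ifs with hh
    · rw [hlam, Nat.cast_sum]
      refine sum_congr rfl fun ψ hψ => ?_
      rw [hker ψ (mem_blockFinset.1 hψ) h hh, (charDegree_spec ψ).1, Complex.conj_natCast,
        Nat.cast_pow, sq]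
    · have hdvd : p ∣ orderOf h := by
        by_contra hc
        exact hh (hKreg h hc)
      have h0 := weakOrth hM hBP 1 h (by rw [orderOf_one]; exact hp.out.not_dvd_one) hdvd
      rw [finsum_mem_eq_sum_blockFinset] at h0
      exact h0.symm
  refine mul_left_cancel₀ hlam0 ?_
  rw [mul_zero, mul_sum]
  calc ∑ k : H, (lam : ℂ) * (if k ∈ K then (ξ : H → ℂ) k else 0)
      = ∑ k : H, (ξ : H → ℂ) k * (if k ∈ K then (lam : ℂ) else 0) := by
        refine sum_congr rfl fun k _ => ?_
        split_ifs <;> ring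
    _ = ∑ ψ ∈ blockFinset (principalBlock M H), (ψ : H → ℂ) 1 *
        ∑ k : H, (ξ : H → ℂ) k * conj ((ψ : H → ℂ) k) := by
        simp only [hfun, mul_sum]
        rw [sum_comm]
        exact sum_congr rfl fun ψ _ => sum_congr rfl fun k _ => by ring
    _ = 0 := by
        refine sum_eq_zero fun ψ hψ => ?_
        have h0 := classInner_eq_zero_of_ne ξ.2 ψ.2 fun e =>
          hξ (Subtype.ext e ▸ mem_blockFinset.1 hψ)
        rw [classInner, mul_eq_zero, inv_eq_zero] at h0
        rw [h0.resolve_left (Nat.cast_ne_zero.2 Nat.card_pos.ne'), mul_zero]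

/-- Outside the principal block a character sums to zero over `y K`. -/
theorem sum_section_eq_zero_of_notMem (hM : IsPModular p M) {y : G} {n : ℕ}
    (hy : orderOf y = p ^ n) (hy1 : y ≠ 1) (K : Subgroup G)
    (hKC : K ≤ Subgroup.centralizer ({y} : Set G))
    (hKn : ∀ c ∈ Subgroup.centralizer ({y} : Set G), ∀ k ∈ K, c * k * c⁻¹ ∈ K)
    (hKp : ¬ p ∣ Nat.card K)
    (hKreg : ∀ c ∈ Subgroup.centralizer ({y} : Set G), ¬ p ∣ orderOf c → c ∈ K)
    {χ : IrrCharacter G} (hχ : χ ∉ principalBlock M G) :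
    ∑ k : K, (χ : G → ℂ) (y * k) = 0 := by
  set C := Subgroup.centralizer ({y} : Set G) with hC
  haveI : (K.subgroupOf C).Normal := ⟨fun k hk c => hKn c c.2 k hk⟩
  haveI := Fintype.ofFinite (IrrCharacter C)
  have hK' : Nat.card (K.subgroupOf C) = Nat.card K :=
    Nat.card_congr (Subgroup.subgroupOfEquivOfLe hKC).toEquiv
  rw [← Fintype.sum_equiv (Subgroup.subgroupOfEquivOfLe hKC).toEquiv
    (fun k => (χ : G → ℂ) ((cenElem y * (k : C) : C) : G)) _ (fun k => rfl)]
  simp only [res_eq_sum y χ]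
  rw [sum_comm, ← sum_filter_add_sum_filter_not univ (· ∈ principalBlock M C)]
  have h1 : ∀ k : ↥(K.subgroupOf C), ∑ ξ ∈ univ.filter (· ∈ principalBlock M C),
      (resMult y χ ξ : ℂ) * (ξ : C → ℂ) (cenElem y * (k : C)) = 0 := fun k => by
    have hk : ¬ p ∣ orderOf (k : C) := fun h => hKp (h.trans (by
      rw [← Subgroup.orderOf_coe]
      exact Subgroup.orderOf_dvd_natCard _ k.2))
    rw [← secPart_principal_of_notMem y ⟨n, hy⟩ hM hχ hk]
    exact sum_congr (by ext ξ; simp only [mem_filter, mem_univ, true_and, mem_blockFinset]; exact Iff.rfl) fun _ _ => rfl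
  rw [sum_comm, sum_eq_zero (fun k _ => h1 k), zero_add]
  refine sum_eq_zero fun ξ hξ => ?_
  have hcc : ∀ h : C, Commute (⟨y, Subgroup.mem_centralizer_singleton_iff.2 rfl⟩ : C) h :=
    fun h => commute_cenElem y h
  obtain ⟨-, h3⟩ := centralVal_spec ξ (commute_cenElem y)
  simp only [h3, ← mul_assoc, ← mul_sum]
  have h0 := sum_subgroup_eq_zero_of_notMem hM (K.subgroupOf C) (by rwa [hK'])
    (fun h hh => hKreg h h.2 (by rwa [Subgroup.orderOf_coe]))
    (y := ⟨y, Subgroup.mem_centralizer_singleton_iff.2 rfl⟩) (n := n)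
    (by rwa [Subgroup.orderOf_mk]) (fun h => hy1 (congrArg Subtype.val h)) hcc
    (mem_filter.1 hξ).2
  rw [← sum_filter] at h0
  rw [← sum_subtype (univ.filter (· ∈ K.subgroupOf C)) (fun x => by simp) (fun x : C => (ξ : C → ℂ) x), h0, mul_zero]

/-- If no element of `y K` is a product of two conjugates of `t`. -/
theorem sum_principal_sq_mul_eq_zero (hM : IsPModular p M) {y : G} {n : ℕ}
    (hy : orderOf y = p ^ n) (hy1 : y ≠ 1) (K : Subgroup G)
    (hKC : K ≤ Subgroup.centralizer ({y} : Set G))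
    (hKn : ∀ c ∈ Subgroup.centralizer ({y} : Set G), ∀ k ∈ K, c * k * c⁻¹ ∈ K)
    (hKp : ¬ p ∣ Nat.card K)
    (hKreg : ∀ c ∈ Subgroup.centralizer ({y} : Set G), ¬ p ∣ orderOf c → c ∈ K)
    {t : G} (ht : orderOf t = 2) (hno : ∀ k ∈ K, ∀ u, ¬ (IsConj t u ∧ IsConj t (u * (y * k)))) :
    ∑ χ ∈ blockFinset (principalBlock M G),
      (χ : G → ℂ) t * (χ : G → ℂ) t / (χ : G → ℂ) 1 * (χ : G → ℂ) y = 0 := by
  haveI := Fintype.ofFinite (IrrCharacter G)
  have h := sum_weight_pairs t t (fun u : G => if y⁻¹ * u ∈ K then (1 : ℂ) else 0)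
  have hl : ∀ (u : G) (S : Finset G), (∀ x, x ∈ S ↔ IsConj t x ∧ IsConj t (x * u)) →
      (if y⁻¹ * u ∈ K then (1 : ℂ) else 0) * (S.card : ℂ) = 0 := by
    intro u S hS
    split_ifs with hu
    · rw [one_mul, Nat.cast_eq_zero, card_eq_zero]
      refine Finset.eq_empty_of_forall_notMem fun x hx => ?_
      obtain ⟨h1, h2⟩ := (hS x).1 hx
      exact hno _ hu x ⟨h1, by rwa [mul_inv_cancel_left]⟩
    · rw [zero_mul]
  replace h := h.symm.trans (sum_eq_zero fun u _ => hl u _ fun x => by simp)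
  have hsec : ∀ χ : IrrCharacter G, ∑ u : G, (if y⁻¹ * u ∈ K then (1 : ℂ) else 0) * (χ : G → ℂ) u =
      ∑ k : K, (χ : G → ℂ) (y * k) := fun χ => by
    simp only [ite_mul, one_mul, zero_mul, ← sum_filter]
    refine sum_bij' (fun u hu => (⟨y⁻¹ * u, (mem_filter.1 hu).2⟩ : K)) (fun k _ => y * (k : G))
      (fun _ _ => mem_univ _) (fun k _ => by simp) (fun u _ => by simp) (fun k _ => by simp)
      fun u _ => by simp
  simp only [hsec] at h
  have hval : ∀ χ ∈ principalBlock M G, ∑ k : K, (χ : G → ℂ) (y * k) =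
      (Nat.card K : ℂ) * (χ : G → ℂ) y := fun χ hχ => by
    rw [sum_congr rfl (g := fun _ => (χ : G → ℂ) y) (fun k _ =>
      Involutions.apply_mul_eq_apply hM hχ hy hy1 K hKC hKn hKp k.2), sum_const, card_univ,
      nsmul_eq_mul, Nat.card_eq_fintype_card]
  have htt : ∀ χ : IrrCharacter G, conj ((χ : G → ℂ) t) = (χ : G → ℂ) t := fun χ => by
    obtain ⟨a, ha⟩ := BlockLocal.exists_int_apply_involution χ ht
    rw [ha, map_intCast]
  rw [← sum_subset (subset_univ (blockFinset (principalBlock M G))) (fun χ _ hχ => by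
      rw [sum_section_eq_zero_of_notMem hM hy hy1 K hKC hKn hKp hKreg (by simpa using hχ),
        mul_zero]),
    sum_congr rfl (g := fun χ : IrrCharacter G => ((Subgroup.centralizer ({t} : Set G)).index : ℂ) *
      (Nat.card K : ℂ) * ((χ : G → ℂ) t * (χ : G → ℂ) t / (χ : G → ℂ) 1 * (χ : G → ℂ) y))
      (fun χ hχ => by
        rw [hval χ (mem_blockFinset.1 hχ), centralChar_apply, htt]
        ring), ← mul_sum] at h
  refine (mul_eq_zero.1 ((mul_eq_zero.1 h).resolve_left ?_)).resolve_left ?_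
  · exact div_ne_zero (Nat.cast_ne_zero.2 Subgroup.index_ne_zero_of_finite)
      (Nat.cast_ne_zero.2 Nat.card_pos.ne')
  · exact mul_ne_zero (Nat.cast_ne_zero.2 Subgroup.index_ne_zero_of_finite)
      (Nat.cast_ne_zero.2 Nat.card_pos.ne')

/-- A character equal to its degree at an element lying in no proper normal subgroup. -/
theorem eq_trivIrr_of_apply_eq_degree {t : G} (hgen : ∀ K : Subgroup G, K.Normal → t ∈ K → K = ⊤)
    {χ : IrrCharacter G} (h : (χ : G → ℂ) t = (χ : G → ℂ) 1) : χ = trivIrr G := by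
  have hc := IsIrrCharacter.isCharacter χ.2
  have htop := hgen _ (Correspondences.charKer_normal hc) h
  have hconst : ∀ g, (χ : G → ℂ) g = (χ : G → ℂ) 1 := fun g =>
    (Correspondences.mem_charKer hc).1 (by rw [htop]; exact Subgroup.mem_top g)
  by_contra hne
  have h0 := classInner_eq_zero_of_ne χ.2 (trivIrr G).2 (fun e => hne (Subtype.ext e))
  rw [classInner, sum_congr rfl (g := fun _ : G => (χ : G → ℂ) 1) (fun g _ => by
    rw [hconst g, trivIrr_apply, map_one, mul_one]), sum_const, card_univ, nsmul_eq_mul,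
    ← Nat.card_eq_fintype_card, inv_mul_cancel_left₀ (Nat.cast_ne_zero.2 Nat.card_pos.ne')] at h0
  exact apply_one_ne_zero_of_isIrr χ.2 h0

/-! ### Four characters -/

theorem not_one_neg {a b c x y z : ℤ} (hx : 0 < x) (hy : 0 < y) (hz : z = -(x + y + 1))
    (hc : c ≠ 0) (hE : a + b + c = 0) (hQ : a ^ 2 * y * z + b ^ 2 * x * z + c ^ 2 * x * y = 0) :
    False := by
  subst hz
  have hc' : c = -(a + b) := by omega
  subst hc'
  have h1 : (a ^ 2 * y + b ^ 2 * x) + (a * y - b * x) ^ 2 = 0 := by nlinarith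
  have h2 : a = 0 := by nlinarith [sq_nonneg (a * y - b * x), mul_nonneg (sq_nonneg b) hx.le]
  have h3 : b = 0 := by nlinarith [sq_nonneg (a * y - b * x), mul_nonneg (sq_nonneg a) hy.le]
  exact hc (by omega)

theorem isSquare_natAbs_of_two_neg {a b c x y z : ℤ} (hy : y < 0) (hz : z < 0)
    (hxyz : x + y + z = -1) (hc : c ≠ 0) (hE : a + b + c = 0)
    (hQ : a ^ 2 * y * z + b ^ 2 * x * z + c ^ 2 * x * y = 0) : IsSquare (x * y * z).natAbs := by
  have hx : x = -1 - y - z := by omega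
  have ha : a = -(b + c) := by omega
  subst hx ha
  have key : (z * (z + 1) * b - y * z * c) ^ 2 = c ^ 2 * ((-1 - y - z) * y * z) := by
    linear_combination (-(z * (z + 1))) * hQ
  have hdvd : c ^ 2 ∣ (z * (z + 1) * b - y * z * c) ^ 2 := ⟨_, key⟩
  obtain ⟨r, hr⟩ := (Int.pow_dvd_pow_iff two_ne_zero).1 hdvd
  rw [hr, mul_pow] at key
  refine ⟨r.natAbs, ?_⟩
  rw [← mul_left_cancel₀ (pow_ne_zero 2 hc) key, sq, Int.natAbs_mul]

theorem four_term {a b c x y z : ℤ} (hx : x ≠ 0) (hy : y ≠ 0) (hz : z ≠ 0) (ha : a ≠ 0) (hb : b ≠ 0)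
    (hc : c ≠ 0) (hsum : x + y + z = -1) (hE : a + b + c = 0)
    (hQ : a ^ 2 * y * z + b ^ 2 * x * z + c ^ 2 * x * y = 0) :
    ((if x < 0 then 1 else 0) + (if y < 0 then 1 else 0) + (if z < 0 then 1 else 0) : ℕ) = 2 ∧
      IsSquare (x * y * z).natAbs := by
  rcases hx.lt_or_gt with hx' | hx' <;> rcases hy.lt_or_gt with hy' | hy' <;>
    rcases hz.lt_or_gt with hz' | hz'
  · exfalso
    nlinarith [mul_pos (neg_pos.2 hy') (neg_pos.2 hz'), mul_pos (neg_pos.2 hx') (neg_pos.2 hz'),
      mul_pos (neg_pos.2 hx') (neg_pos.2 hy'), sq_pos_of_ne_zero ha, sq_nonneg b, sq_nonneg c]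
  · refine ⟨by simp [hx', hy', hz'.not_gt], ?_⟩
    rw [show x * y * z = z * x * y by ring]
    exact isSquare_natAbs_of_two_neg hx' hy' (by omega) hb (by omega) (a := c) (b := a) (c := b)
      (by linear_combination hQ)
  · refine ⟨by simp [hx', hz', hy'.not_gt], ?_⟩
    rw [show x * y * z = y * z * x by ring]
    exact isSquare_natAbs_of_two_neg hz' hx' (by omega) ha (by omega) (a := b) (b := c) (c := a)
      (by linear_combination hQ)
  · exact (not_one_neg hy' hz' (show x = -(y + z + 1) by omega) ha (a := b) (b := c) (by omega)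
      (by linear_combination hQ)).elim
  · exact ⟨by simp [hy', hz', hx'.not_gt],
      isSquare_natAbs_of_two_neg hy' hz' hsum hc hE hQ⟩
  · exact (not_one_neg hz' hx' (show y = -(z + x + 1) by omega) hb (a := c) (b := a) (by omega)
      (by linear_combination hQ)).elim
  · exact (not_one_neg hx' hy' (show z = -(x + y + 1) by omega) hc hE hQ).elim
  · omega

end CfsgLib.BrauerCharacters
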