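import Cfsg.Agent.Lib.Suzuki.Count
import Cfsg.Agent.Lib.Suzuki.Partition
import Cfsg.Agent.Lib.Coherence.TIFN
import Cfsg.Agent.Lib.CharTheory.Ito
import Cfsg.Agent.Lib.CharTheory.Linear
import Cfsg.Agent.Lib.CharTheory.Inflation
import Cfsg.Agent.Lib.Clifford.Basic
import Cfsg.Agent.Lib.Coherence.Virtual
import Cfsg.Agent.Lib.Brauer.CharRing
import Cfsg.Agent.Lib.BlockLocal.Covering

/-!
# The characters of `Sz(q)` coming from the Borel subgroup
-/

set_option autoImplicit false
set_option linter.style.haveILetI false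
set_option linter.unusedSectionVars false

namespace CfsgLib.BrauerCharacters.SzBorel

open Cfsg CfsgLib.CharTheory CfsgLib.Suzuki Finset
open scoped ComplexConjugate

variable {F : Type*} [Field F] {m : ℕ} (h : Hyp F m)
include h

/-- The torus coordinate on the Borel subgroup. -/
noncomputable def tPart : MulAction.stabilizer (Cfsg.Sz F m) (oInf F m) →* Fˣ where
  toFun b := (h.stabEquiv.symm b).2
  map_one' := by
    rw [show (1 : MulAction.stabilizer (Cfsg.Sz F m) (oInf F m)) = h.stabEquiv ((0, 0), 1) from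
      Subtype.ext (show (1 : Cfsg.Sz F m) = h.u 0 0 * h.d 1 by rw [h.u_zero, h.d_one, one_mul]),
      Equiv.symm_apply_apply]
  map_mul' b b' := by
    obtain ⟨⟨⟨a, c⟩, t⟩, rfl⟩ := h.stabEquiv.surjective b
    obtain ⟨⟨⟨a', c'⟩, t'⟩, rfl⟩ := h.stabEquiv.surjective b'
    rw [Equiv.symm_apply_apply, Equiv.symm_apply_apply,
      show h.stabEquiv ((a, c), t) * h.stabEquiv ((a', c'), t') = h.stabEquiv ((a + kap m t * a',
        c + th m (kap m t) * kap m t * c' + th m a * (kap m t * a')), t * t') from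
        Subtype.ext (show h.u a c * h.d t * (h.u a' c' * h.d t') = h.u _ _ * h.d (t * t') by
          rw [← h.u_mul, ← h.d_u, ← h.d_mul]; group), Equiv.symm_apply_apply]

theorem tPart_eq {a c : F} {t : Fˣ} {b : MulAction.stabilizer (Cfsg.Sz F m) (oInf F m)}
    (hb : (b : Cfsg.Sz F m) = h.u a c * h.d t) : tPart h b = t := by
  have : b = h.stabEquiv ((a, c), t) := Subtype.ext hb
  subst this
  show (h.stabEquiv.symm (h.stabEquiv ((a, c), t))).2 = t
  rw [Equiv.symm_apply_apply]

theorem d_mem (t : Fˣ) : h.d t ∈ MulAction.stabilizer (Cfsg.Sz F m) (oInf F m) :=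
  MulAction.mem_stabilizer_iff.2 (h.d_smul_inf t)

theorem u_mem (a c : F) : h.u a c ∈ MulAction.stabilizer (Cfsg.Sz F m) (oInf F m) :=
  MulAction.mem_stabilizer_iff.2 (h.u_smul_inf a c)

theorem tPart_d (t : Fˣ) : tPart h ⟨h.d t, d_mem h t⟩ = t :=
  tPart_eq h (show h.d t = h.u 0 0 * h.d t by rw [h.u_zero, one_mul])

variable [Fintype (Cfsg.Sz F m)]

/-- The induced character of a character of the torus. -/
noncomputable def ps (l : Fˣ →* ℂˣ) : Cfsg.Sz F m → ℂ :=
  indFun (MulAction.stabilizer (Cfsg.Sz F m) (oInf F m)) (fun b => (l (tPart h b) : ℂ))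

theorem conj_hom [Finite Fˣ] (l : Fˣ →* ℂˣ) (t : Fˣ) : conj (l t : ℂ) = (l t⁻¹ : ℂ) := by
  have hn : ‖(l t : ℂ)‖ = 1 := by
    refine Complex.norm_eq_one_of_pow_eq_one (n := Nat.card Fˣ) ?_ Nat.card_pos.ne'
    rw [← Units.val_pow_eq_pow_val, ← map_pow, pow_card_eq_one', map_one, Units.val_one]
  rw [map_inv, Units.val_inv_eq_inv_val, Complex.inv_eq_conj hn]

theorem classInner_ps [Fintype F] [DecidableEq (Fˣ →* ℂˣ)] (l l' : Fˣ →* ℂˣ) :
    classInner (ps h l) (ps h l') = (if l = l' then 1 else 0) + (if l * l' = 1 then 1 else 0) := by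
  classical
  set B := MulAction.stabilizer (Cfsg.Sz F m) (oInf F m) with hB
  haveI : Fintype B := Fintype.ofFinite _
  haveI : Fintype Fˣ := Fintype.ofFinite _
  set L : (Fˣ →* ℂˣ) → B → ℂ := fun k b => (k (tPart h b) : ℂ) with hL
  have hLirr : ∀ k, IsIrrCharacter B (L k) := fun k => isIrrCharacter_linear (k.comp (tPart h))
  rw [show ps h l = indFun B (fun b => (l (tPart h b) : ℂ)) from rfl,
    Frobenius.classInner_indFun B _ (ps h l') (Frobenius.indFun_isClassFunction B _)]
  set S : Cfsg.Sz F m → ℂ := fun x =>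
    ∑ b : B, L l b * conj (extendByZero B (L l') (x⁻¹ * b * x)) with hS
  have hexp : classInner (fun b : B => (l (tPart h b) : ℂ)) (fun b : B => ps h l' b) =
      (Nat.card B : ℂ)⁻¹ * (Nat.card B : ℂ)⁻¹ * ∑ x, S x := by
    rw [classInner]
    simp only [ps, indFun, ← hB, map_mul, map_inv₀, map_natCast, map_sum, hS, hL]
    rw [sum_comm, mul_assoc]
    simp only [mul_sum]
    exact sum_congr rfl fun b _ => sum_congr rfl fun x _ => by ring
  refine hexp.trans ?_
  have hin : ∀ x ∈ B, S x = (Nat.card B : ℂ) * if l = l' then 1 else 0 := by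
    intro x hx
    have e : ∀ b : B, extendByZero B (L l') (x⁻¹ * b * x) = L l' b := fun b => by
      rw [Frobenius.extendByZero_of_mem B _ (B.mul_mem (B.mul_mem (B.inv_mem hx) b.2) hx)]
      show (l' (tPart h _) : ℂ) = _
      rw [show (⟨_, B.mul_mem (B.mul_mem (B.inv_mem hx) b.2) hx⟩ : B) = (⟨x, hx⟩ : B)⁻¹ * b * ⟨x, hx⟩
        from rfl]
      simp [hL]
    simp only [hS, e]
    have hi := classInner_irr (hLirr l) (hLirr l')
    rw [classInner, inv_mul_eq_iff_eq_mul₀ (Nat.cast_ne_zero.2 Nat.card_pos.ne')] at hi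
    rw [hi]
    congr 1
    refine if_congr ⟨fun e => MonoidHom.ext fun t => Units.ext ?_, fun e => e ▸ rfl⟩ rfl rfl
    have := congrFun e ⟨h.d t, d_mem h t⟩
    simpa [hL, tPart_d] using this
  have hout : ∀ x ∉ B, S x = (Nat.card Fˣ : ℂ) * if l * l' = 1 then 1 else 0 := by
    intro x hx
    rcases h.decomp x with ⟨a, c, t, rfl⟩ | ⟨a, c, a', c', t', hxe⟩
    · exact absurd (B.mul_mem (u_mem h a c) (d_mem h t)) hx
    set v := h.u a' c' * h.d t' with hv
    have hvB : v ∈ B := B.mul_mem (u_mem h a' c') (d_mem h t')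
    have hu := u_mem h a c
    let ι : Fˣ → B := fun t => ⟨h.u a c * h.d t * (h.u a c)⁻¹,
      B.mul_mem (B.mul_mem hu (d_mem h t)) (B.inv_mem hu)⟩
    have hιconj : ∀ t : Fˣ, x⁻¹ * (ι t : Cfsg.Sz F m) * x = v⁻¹ * h.d t⁻¹ * v := fun t => by
      rw [hxe, ← h.w_d t]
      simp only [ι, mul_inv_rev, h.w_inv]
      group
    have hval : ∀ t : Fˣ, L l (ι t) * conj (extendByZero B (L l') (x⁻¹ * (ι t) * x)) =
        ((l * l') t : ℂ) := fun t => by
      have hm : v⁻¹ * h.d t⁻¹ * v ∈ B := B.mul_mem (B.mul_mem (B.inv_mem hvB) (d_mem h _)) hvB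
      rw [hιconj, Frobenius.extendByZero_of_mem B _ hm]
      have e1 : tPart h (ι t) = t := by
        rw [show ι t = (⟨_, hu⟩ : B) * ⟨_, d_mem h t⟩ * (⟨_, hu⟩ : B)⁻¹ from rfl, map_mul, map_mul,
          map_inv, tPart_d, mul_inv_cancel_comm]
      have e2 : tPart h ⟨_, hm⟩ = t⁻¹ := by
        rw [show (⟨_, hm⟩ : B) = (⟨v, hvB⟩ : B)⁻¹ * ⟨_, d_mem h t⁻¹⟩ * ⟨v, hvB⟩ from rfl, map_mul,
          map_mul, map_inv, tPart_d, inv_mul_cancel_comm]
      simp only [hL, e1, e2, conj_hom h, inv_inv, MonoidHom.mul_apply, Units.val_mul]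
    have hinj : Function.Injective ι := fun s t e => h.d_injective (by
      have := congrArg Subtype.val e
      simpa [ι] using this)
    have hsurj : ∀ b : B, b ∉ univ.image ι →
        L l b * conj (extendByZero B (L l') (x⁻¹ * b * x)) = 0 := by
      intro b hb
      rw [Frobenius.extendByZero_of_not_mem B _ fun hm => hb ?_, map_zero, mul_zero]
      have h1 : ((b : Cfsg.Sz F m)) • (x • oInf F m) = x • oInf F m := by
        have := MulAction.mem_stabilizer_iff.1 hm
        rwa [mul_smul, mul_smul, inv_smul_eq_iff] at this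
      have hxi : x • oInf F m = h.u a c • oPt m (0 : F) 0 := by
        rw [hxe, mul_smul, mul_smul, MulAction.mem_stabilizer_iff.1 hvB, h.w_smul_inf]
      obtain ⟨t, ht⟩ := h.mem_d_of_fix (g := (h.u a c)⁻¹ * b * h.u a c)
        (MulAction.mem_stabilizer_iff.1 (B.mul_mem (B.mul_mem (B.inv_mem hu) b.2) hu))
        (by rw [mul_smul, mul_smul, ← hxi, h1, hxi, inv_smul_smul])
      exact mem_image.2 ⟨t, mem_univ _, Subtype.ext (by
        show h.u a c * h.d t * (h.u a c)⁻¹ = b
        rw [← ht]; group)⟩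
    simp only [hS]
    rw [← sum_subset (subset_univ (univ.image ι)) (fun b _ hb => hsurj b hb),
      sum_image (fun s _ t _ e => hinj e), sum_congr rfl fun t _ => hval t]
    split_ifs with he
    · simp [he, Nat.card_eq_fintype_card]
    · rw [mul_zero]
      exact sum_hom_units_eq_zero ((Units.coeHom ℂ).comp (l * l'))
        fun e => he (MonoidHom.ext fun t => Units.ext (DFunLike.congr_fun e t))
  rw [← sum_filter_add_sum_filter_not univ (· ∈ B), sum_congr rfl fun x hx => hin x (mem_filter.1 hx).2,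
    sum_congr rfl fun x hx => hout x (mem_filter.1 hx).2, sum_const, sum_const, nsmul_eq_mul,
    nsmul_eq_mul]
  have hc1 : (univ.filter (· ∈ B)).card = Nat.card B := by
    rw [Nat.card_eq_fintype_card, Fintype.card_subtype]
  have hc2 : (univ.filter (¬ · ∈ B)).card * Nat.card Fˣ = Nat.card B * Nat.card B := by
    have h3 := card_filter_add_card_filter_not (s := (univ : Finset (Cfsg.Sz F m))) (· ∈ B)
    rw [hc1, card_univ, ← Nat.card_eq_fintype_card, h.card_group,
      show Nat.card B = _ from h.card_stabilizer_inf] at h3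
    rw [show Nat.card B = _ from h.card_stabilizer_inf, h.card_units]
    have : (univ.filter (¬ · ∈ B)).card =
        (2 ^ (2 * m + 1)) ^ 2 * ((2 ^ (2 * m + 1)) ^ 2) * (2 ^ (2 * m + 1) - 1) := by
      linarith
    rw [this]; ring
  rw [hc1]
  have hc2' : ((univ.filter (¬ · ∈ B)).card : ℂ) * (Nat.card Fˣ : ℂ) =
      (Nat.card B : ℂ) * Nat.card B := by exact_mod_cast hc2
  rw [← mul_assoc ((univ.filter (¬ · ∈ B)).card : ℂ), hc2']
  have : (Nat.card B : ℂ) ≠ 0 := Nat.cast_ne_zero.2 Nat.card_pos.ne'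
  field_simp

theorem ps_one_apply (l : Fˣ →* ℂˣ) : ps h l 1 = ((qq m : ℕ) : ℂ) := by
  have := h.isPretransitive
  rw [ps, Frobenius.indFun_one, map_one, map_one, Units.val_one, mul_one,
    MulAction.index_stabilizer_of_transitive, h.card_suzukiOvoid, qq]

theorem ps_free (l : Fˣ →* ℂˣ) {g : Cfsg.Sz F m}
    (hg : ∀ p : Cfsg.suzukiOvoid F m, g • p ≠ p) : ps h l g = 0 := by
  refine Frobenius.indFun_eq_zero_of_forall_conj_not_mem _ _ fun x hx => hg (x • oInf F m) ?_
  have := MulAction.mem_stabilizer_iff.1 hx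
  rwa [mul_smul, mul_smul, inv_smul_eq_iff] at this

theorem conj_ps [Finite Fˣ] (l : Fˣ →* ℂˣ) (g : Cfsg.Sz F m) : conj (ps h l g) = ps h l⁻¹ g := by
  simp only [ps, indFun, map_mul, map_inv₀, map_natCast, map_sum]
  congr 1
  refine sum_congr rfl fun x _ => ?_
  by_cases hx : x⁻¹ * g * x ∈ MulAction.stabilizer (Cfsg.Sz F m) (oInf F m)
  · rw [Frobenius.extendByZero_of_mem _ _ hx, Frobenius.extendByZero_of_mem _ _ hx, conj_hom h,
      MonoidHom.inv_apply, map_inv]
  · rw [Frobenius.extendByZero_of_not_mem _ _ hx, Frobenius.extendByZero_of_not_mem _ _ hx, map_zero]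

theorem exists_borelData [Fintype (IrrCharacter (Cfsg.Sz F m))] :
    ∃ (St : IrrCharacter (Cfsg.Sz F m)) (P : Finset (IrrCharacter (Cfsg.Sz F m))),
      (St : Cfsg.Sz F m → ℂ) ≠ (fun _ => 1) ∧ St ∉ P ∧
      (∀ χ ∈ P, (χ : Cfsg.Sz F m → ℂ) ≠ fun _ => 1) ∧
      charDegree (St : Cfsg.Sz F m → ℂ) = (2 ^ (2 * m + 1)) ^ 2 ∧
      (∀ χ ∈ P, charDegree (χ : Cfsg.Sz F m → ℂ) = qq m) ∧
      2 * P.card + 2 = 2 ^ (2 * m + 1) ∧
      (∀ g : Cfsg.Sz F m, (∀ p : Cfsg.suzukiOvoid F m, g • p ≠ p) →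
        (St : Cfsg.Sz F m → ℂ) g = -1 ∧ ∀ χ ∈ P, (χ : Cfsg.Sz F m → ℂ) g = 0) ∧
      (∀ g : Cfsg.Sz F m, conj ((St : Cfsg.Sz F m → ℂ) g) = (St : Cfsg.Sz F m → ℂ) g ∧
        ∀ χ ∈ P, conj ((χ : Cfsg.Sz F m → ℂ) g) = (χ : Cfsg.Sz F m → ℂ) g) ∧
      ∀ χ : IrrCharacter (Cfsg.Sz F m), (χ : Cfsg.Sz F m → ℂ) ≠ (fun _ => 1) → χ ≠ St → χ ∉ P →
        2 ^ (2 * m + 1) - 1 ∣ charDegree (χ : Cfsg.Sz F m → ℂ) := by
  classical
  haveI := h.finite
  haveI := Fintype.ofFinite F
  haveI : Fintype (Fˣ →* ℂˣ) := Fintype.ofFinite _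
  set B := MulAction.stabilizer (Cfsg.Sz F m) (oInf F m) with hB
  haveI : Fintype B := Fintype.ofFinite _
  haveI := Fintype.ofFinite (IrrCharacter B)
  set q := 2 ^ (2 * m + 1) with hq
  have hqq : qq m = q ^ 2 + 1 := rfl
  have hchar : ∀ l, IsCharacter (Cfsg.Sz F m) (ps h l) := fun l =>
    Frobenius.isCharacter_indFun B _ (IsIrrCharacter.isCharacter (isIrrCharacter_linear (l.comp (tPart h))))
  have hodd : ∀ l : Fˣ →* ℂˣ, l * l = 1 → l = 1 := by
    intro l hl
    refine MonoidHom.ext fun t => ?_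
    obtain ⟨s, rfl⟩ := h.exists_sq t
    rw [map_mul, MonoidHom.one_apply]
    exact DFunLike.congr_fun hl s
  have hirr : ∀ l : Fˣ →* ℂˣ, l ≠ 1 → IsIrrCharacter (Cfsg.Sz F m) (ps h l) := fun l hl =>
    (isIrrCharacter_iff_norm_one (hchar l)).2 (by
      rw [classInner_ps h, if_pos rfl, if_neg fun e => hl (hodd l e), add_zero])
  -- the Steinberg character
  set one : IrrCharacter (Cfsg.Sz F m) := ⟨_, isIrrCharacter_one⟩ with hone
  have hinner1 : classInner (ps h 1) (one : Cfsg.Sz F m → ℂ) = 1 := by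
    rw [ps, Frobenius.classInner_indFun B _ _ (IsIrrCharacter.isClassFunction one.2)]
    simpa [hone] using classInner_self_of_isIrr (isIrrCharacter_one (G := B))
  have hself : classInner (ps h 1) (ps h 1) = 2 := by
    rw [classInner_ps h, if_pos rfl, if_pos (MonoidHom.ext fun t => by simp)]; norm_num
  have hstirr : IsIrrCharacter (Cfsg.Sz F m) (ps h 1 - (one : Cfsg.Sz F m → ℂ)) := by
    refine isIrrCharacter_of_norm_one ⟨_, _, hchar 1, IsIrrCharacter.isCharacter one.2, rfl⟩ ?_ ?_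
    · rw [classInner_sub_left, classInner_sub_right, classInner_sub_right, hself,
        classInner_conj_symm (one : Cfsg.Sz F m → ℂ) (ps h 1), hinner1,
        classInner_self_of_isIrr one.2, map_one]
      norm_num
    · rw [Pi.sub_apply, ps_one_apply h, Complex.sub_re, Complex.natCast_re]
      have : (1 : ℕ) < qq m := by rw [hqq]; have := q_ge h.one_le; nlinarith
      have : (1 : ℝ) < (qq m : ℝ) := by exact_mod_cast this
      simp only [hone, Complex.one_re]; linarith
  set St : IrrCharacter (Cfsg.Sz F m) := ⟨_, hstirr⟩ with hSt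
  have hinvne : ∀ l : Fˣ →* ℂˣ, l ≠ 1 → l⁻¹ ≠ 1 := fun l hl e => hl (MonoidHom.ext fun t => by
    simpa using DFunLike.congr_fun e t)
  have hmulinv : ∀ l : Fˣ →* ℂˣ, l⁻¹ * l = 1 := fun l => MonoidHom.ext fun t => by simp
  have heqinv : ∀ k l : Fˣ →* ℂˣ, k * l = 1 → k = l⁻¹ := fun k l e => MonoidHom.ext fun t => by
    simpa [mul_eq_one_iff_eq_inv] using DFunLike.congr_fun e t
  set L : Finset (Fˣ →* ℂˣ) := univ.erase 1 with hL
  have hLm : ∀ {l}, l ∈ L ↔ l ≠ 1 := by simp [hL]
  set P : Finset (IrrCharacter (Cfsg.Sz F m)) :=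
    L.attach.image (fun l => ⟨ps h l.1, hirr l.1 (hLm.1 l.2)⟩) with hP
  have hPm : ∀ χ ∈ P, ∃ l : Fˣ →* ℂˣ, l ≠ 1 ∧ (χ : Cfsg.Sz F m → ℂ) = ps h l := by
    intro χ hχ
    obtain ⟨l, -, rfl⟩ := mem_image.1 hχ
    exact ⟨l, hLm.1 l.2, rfl⟩
  have hdeg : ∀ χ : IrrCharacter (Cfsg.Sz F m), ∀ n : ℕ, (χ : Cfsg.Sz F m → ℂ) 1 = n →
      charDegree (χ : Cfsg.Sz F m → ℂ) = n := fun χ n e => by simp [charDegree, e]
  have hq8 : 8 ≤ q := q_ge h.one_le
  have hone1 : ps h 1 1 = ((q ^ 2 + 1 : ℕ) : ℂ) := by rw [ps_one_apply h, hqq]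
  refine ⟨St, P, ?_, ?_, ?_, ?_, ?_, ?_, ?_, ?_, ?_⟩
  · intro e
    have h1 := congrFun e 1
    rw [show (St : Cfsg.Sz F m → ℂ) 1 = ps h 1 1 - 1 from rfl, hone1] at h1
    push_cast at h1
    have : ((q : ℂ)) ^ 2 = ((1 : ℕ) : ℂ) := by push_cast; linear_combination h1
    have : q ^ 2 = 1 := by exact_mod_cast this
    nlinarith
  · intro hc
    obtain ⟨l, -, e⟩ := hPm St hc
    have h1 := congrFun e 1
    rw [show (St : Cfsg.Sz F m → ℂ) 1 = ps h 1 1 - 1 from rfl, ps_one_apply h, ps_one_apply h] at h1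
    simpa using h1
  · intro χ hχ e
    obtain ⟨l, -, e'⟩ := hPm χ hχ
    have h1 := congrFun (e'.symm.trans e) 1
    rw [ps_one_apply h] at h1
    have : qq m = 1 := by exact_mod_cast h1
    rw [hqq] at this; nlinarith
  · refine hdeg St _ ?_
    rw [show (St : Cfsg.Sz F m → ℂ) 1 = ps h 1 1 - 1 from rfl, hone1]
    push_cast; ring
  · intro χ hχ
    obtain ⟨l, -, e⟩ := hPm χ hχ
    exact hdeg χ _ (by rw [e, ps_one_apply h])
  · have hfib : ∀ χ ∈ P, (L.filter fun l => ps h l = (χ : Cfsg.Sz F m → ℂ)).card = 2 := by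
      intro χ hχ
      obtain ⟨l, hl, e⟩ := hPm χ hχ
      rw [show L.filter (fun k => ps h k = (χ : Cfsg.Sz F m → ℂ)) = {l, l⁻¹} from ?_,
        card_pair fun e => hl (hodd l (by nth_rewrite 1 [e]; exact hmulinv l))]
      ext k
      simp only [mem_filter, hLm, mem_insert, mem_singleton, e]
      constructor
      · rintro ⟨hk, hkl⟩
        have h1 := classInner_ps h k l
        rw [hkl, classInner_self_of_isIrr (hirr l hl)] at h1
        by_cases e1 : k = l
        · exact Or.inl e1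
        · by_cases e2 : k * l = 1
          · exact Or.inr (heqinv k l e2)
          · rw [if_neg e1, if_neg e2, add_zero] at h1; exact absurd h1 one_ne_zero
      · rintro (rfl | rfl)
        · exact ⟨hl, rfl⟩
        · refine ⟨hinvne l hl, by_contra fun hne => ?_⟩
          have h1 := classInner_ps h l⁻¹ l
          rw [classInner_eq_zero_of_ne (hirr _ (hinvne l hl)) (hirr l hl) hne, if_pos (hmulinv l)] at h1
          split_ifs at h1 <;> norm_num at h1
    have hLc : L.card = q - 2 := by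
      rw [hL, card_erase_of_mem (mem_univ _), card_univ, ← Nat.card_eq_fintype_card,
        CommGroup.card_monoidHom_of_hasEnoughRootsOfUnity, h.card_units]
      omega
    have := card_eq_sum_card_fiberwise (f := fun l : L => (⟨ps h l.1, hirr l.1 (hLm.1 l.2)⟩ : IrrCharacter (Cfsg.Sz F m)))
      (s := L.attach) (t := P) fun l hl => mem_image_of_mem _ hl
    rw [card_attach, hLc, sum_congr rfl (g := fun _ => 2) (fun χ hχ => by
      rw [← hfib χ hχ]
      refine card_bij (fun l _ => l.1) (fun l hl => mem_filter.2 ⟨l.2, congrArg Subtype.val (mem_filter.1 hl).2⟩)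
        (fun a _ b _ e => Subtype.ext e) fun l hl => ⟨⟨l, (mem_filter.1 hl).1⟩,
          mem_filter.2 ⟨mem_attach _ _, Subtype.ext (mem_filter.1 hl).2⟩, rfl⟩), sum_const, smul_eq_mul] at this
    omega
  · intro g hg
    refine ⟨?_, fun χ hχ => ?_⟩
    · rw [show (St : Cfsg.Sz F m → ℂ) g = ps h 1 g - 1 from rfl, ps_free h 1 hg, zero_sub]
    · obtain ⟨l, -, e⟩ := hPm χ hχ
      rw [e, ps_free h l hg]
  · intro g
    refine ⟨?_, fun χ hχ => ?_⟩
    · rw [show (St : Cfsg.Sz F m → ℂ) g = ps h 1 g - 1 from rfl, map_sub, conj_ps h, map_one,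
        show (1 : Fˣ →* ℂˣ)⁻¹ = 1 from MonoidHom.ext fun t => by simp]
    · obtain ⟨l, hl, e⟩ := hPm χ hχ
      rw [e, conj_ps h]
      refine congrFun (by_contra fun hne => ?_) g
      have h1 := classInner_ps h l⁻¹ l
      rw [classInner_eq_zero_of_ne (hirr _ (hinvne l hl)) (hirr l hl) hne, if_pos (hmulinv l)] at h1
      split_ifs at h1 <;> norm_num at h1
  · intro χ hχ1 hχSt hχP
    -- orthogonal to every induced character
    have horth : ∀ l : Fˣ →* ℂˣ, classInner (χ : Cfsg.Sz F m → ℂ) (ps h l) = 0 := by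
      intro l
      by_cases hl : l = 1
      · subst hl
        rw [show ps h (1 : Fˣ →* ℂˣ) = (St : Cfsg.Sz F m → ℂ) + (one : Cfsg.Sz F m → ℂ) from
          (sub_add_cancel _ _).symm, classInner_add_right,
          classInner_eq_zero_of_ne χ.2 St.2 (fun e => hχSt (Subtype.ext e)),
          classInner_eq_zero_of_ne χ.2 one.2 hχ1, add_zero]
      · refine classInner_eq_zero_of_ne χ.2 (hirr l hl) fun e => hχP ?_
        exact mem_image.2 ⟨⟨l, hLm.2 hl⟩, mem_attach _ _, Subtype.ext e.symm⟩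
    set U := (tPart h).ker with hU
    have hKC : CfsgLib.CyclicTI.Frob.KernelCond U := by
      intro y hy hy1 x hx
      obtain ⟨⟨⟨a, c⟩, t⟩, rfl⟩ := h.stabEquiv.surjective y
      rw [hU, MonoidHom.mem_ker, tPart_eq h (rfl : _ = h.u a c * h.d t)] at hy
      subst hy
      have hne : h.u a c ≠ 1 := fun e => hy1 (Subtype.ext (show h.u a c * h.d 1 = 1 by rw [e, h.d_one, one_mul]))
      have hxc : (x : Cfsg.Sz F m) ∈ Subgroup.centralizer ({h.u a c} : Set (Cfsg.Sz F m)) := by
        rw [Subgroup.mem_centralizer_singleton_iff] at hx ⊢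
        have := congrArg Subtype.val hx
        change (x : Cfsg.Sz F m) * (h.u a c * h.d 1) = h.u a c * h.d 1 * x at this
        rwa [h.d_one, mul_one] at this
      obtain ⟨a', c', e⟩ := h.centralizer_u_le hne hxc
      rw [hU, MonoidHom.mem_ker, tPart_eq h (show (x : Cfsg.Sz F m) = h.u a' c' * h.d 1 by
        rw [h.d_one, mul_one]; exact e)]
    have hUidx : U.index = q - 1 := by
      rw [hU, Subgroup.index_ker, MonoidHom.range_eq_top.2 fun t => ⟨_, tPart_d h t⟩,
        Subgroup.card_top, h.card_units]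
    obtain ⟨n, hn, hn'⟩ := BlockLocal.res_eq_sum B χ
    have hd : ∀ η : IrrCharacter B, n η ≠ 0 → q - 1 ∣ charDegree (η : B → ℂ) := by
      intro η hη
      by_cases hker : ∀ x ∈ U, (η : B → ℂ) x = (η : B → ℂ) 1
      · exfalso
        obtain ⟨ψ, hψ, hψe⟩ := exists_descend η.2 U hker
        have hη1 : (η : B → ℂ) 1 = 1 := by
          rw [hψe 1]
          refine apply_one_eq_one_of_comm (fun a b => ?_) hψ
          obtain ⟨a, rfl⟩ := QuotientGroup.mk_surjective a
          obtain ⟨b, rfl⟩ := QuotientGroup.mk_surjective b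
          rw [← QuotientGroup.mk_mul, ← QuotientGroup.mk_mul, QuotientGroup.eq, hU, MonoidHom.mem_ker]
          simp only [map_mul, map_inv]
          rw [mul_inv_rev, mul_comm (tPart h b)⁻¹, ← mul_inv, mul_comm (tPart h b), inv_mul_cancel]
        obtain ⟨μ, hμ⟩ := exists_hom_of_degree_one η.2 hη1
        let dB : Fˣ →* B :=
          { toFun := fun t => ⟨h.d t, d_mem h t⟩
            map_one' := Subtype.ext h.d_one
            map_mul' := fun s t => Subtype.ext (h.d_mul s t).symm }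
        have hηl : (η : B → ℂ) = fun b => ((μ.comp dB) (tPart h b) : ℂ) := by
          funext b
          have hb : b * (dB (tPart h b))⁻¹ ∈ U := by
            rw [hU, MonoidHom.mem_ker, map_mul, map_inv, show tPart h (dB (tPart h b)) = _ from tPart_d h _,
              mul_inv_cancel]
          have h1 := hker _ hb
          rw [hη1, hμ] at h1
          have h2 : μ (b * (dB (tPart h b))⁻¹) = 1 := Units.ext h1
          rw [map_mul, map_inv, mul_inv_eq_one] at h2
          rw [hμ]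
          exact congrArg Units.val h2
        have h0 := horth (μ.comp dB)
        rw [ps, Frobenius.classInner_indFun_right B _ _ (IsIrrCharacter.isClassFunction χ.2), ← hηl,
          hn'] at h0
        exact hη (by exact_mod_cast h0)
      · push Not at hker
        have := Coherence.TIFN.index_dvd_deg_of_mem hKC (χ := (η : B → ℂ)) ⟨η.2, hker⟩
        rw [hUidx] at this
        exact this
    have h1 := hn 1
    rw [Subgroup.coe_one] at h1
    have he : charDegree (χ : Cfsg.Sz F m → ℂ) = ∑ η, n η * charDegree (η : B → ℂ) := by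
      refine hdeg χ _ ?_
      rw [h1]; push_cast
      refine sum_congr rfl fun η _ => ?_
      obtain ⟨d, -, hd⟩ := exists_degree_of_isIrr η.2
      simp [charDegree, hd]
    rw [he]
    refine dvd_sum fun η _ => ?_
    by_cases hη : n η = 0
    · simp [hη]
    · exact Dvd.dvd.mul_left (hd η hη) _

end CfsgLib.BrauerCharacters.SzBorel
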