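import Cfsg.Agent.Lib.BrauerCharacters.SzTorus
import Cfsg.Agent.Lib.BrauerCharacters.SzBorel
import Cfsg.Agent.Lib.Correspondences.Codegree
import Cfsg.Agent.Lib.CharTheory.Inflation
import Cfsg.Agent.Lib.Suzuki.SylowTwo
import Cfsg.Prelude.Def_DegreeGraph

/-!
# The character degrees of `Sz(q)`
-/

set_option autoImplicit false
set_option linter.style.haveILetI false
set_option linter.unusedSectionVars false

namespace CfsgLib.BrauerCharacters.SzDegrees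

open Cfsg CfsgLib.CharTheory CfsgLib.Suzuki Finset
open scoped ComplexConjugate

theorem one_le_sq {z : ℤ} (hz : z ≠ 0) : 1 ≤ z ^ 2 := by
  have := pow_two_pos_of_ne_zero hz
  omega

section Data

variable {G : Type*} [Group G] [Fintype G]

/-- What the torus analysis yields on the characters `Rs`. -/
structure TData (A : Subgroup G) (Rs : Finset (IrrCharacter G)) (ε : ℤ) (C : IrrCharacter G → ℤ)
    (E : Finset (IrrCharacter G)) : Prop where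
  sign : ε = 1 ∨ ε = -1
  card : 4 * E.card + 1 = Nat.card A
  sub : E ⊆ Rs
  two : 2 ≤ E.card
  const : ∀ χ : IrrCharacter G, χ ∉ E → ∀ x ∈ A, x ≠ 1 → (χ : G → ℂ) x = C χ
  dvd : ∀ χ : IrrCharacter G, (Nat.card A : ℤ) ∣
    (charDegree (χ : G → ℂ) : ℤ) - C χ - if χ ∈ E then 4 * ε else 0
  degEq : ∀ χ ∈ E, ∀ χ' ∈ E, charDegree (χ : G → ℂ) = charDegree (χ' : G → ℂ)
  agree : ∀ χ ∈ E, ∀ χ' ∈ E, ∀ g : G, (∀ k : G, k⁻¹ * g * k ∈ A → g = 1) →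
    (χ : G → ℂ) g = (χ' : G → ℂ) g
  dist : ∀ χ ∈ E, ∀ χ' ∈ E, (∀ x ∈ A, x ≠ 1 → (χ : G → ℂ) x = (χ' : G → ℂ) x) → χ = χ'
  noncst : ∀ χ ∈ E, ¬ ∃ c : ℂ, ∀ x ∈ A, x ≠ 1 → (χ : G → ℂ) x = c
  real : ∀ χ : IrrCharacter G, ∀ x ∈ A, conj ((χ : G → ℂ) x) = (χ : G → ℂ) x
  eq : (E.card : ℤ) * ∑ χ ∈ Rs, C χ ^ 2 - 2 * ε * ∑ χ ∈ E, C χ = 2 * E.card

theorem TData.exists_const {A : Subgroup G} {Rs : Finset (IrrCharacter G)} {ε : ℤ}
    {C : IrrCharacter G → ℤ} {E : Finset (IrrCharacter G)} (T : TData A Rs ε C E) (h3 : 3 ≤ E.card) :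
    ∃ c : ℤ, (c = 0 ∨ c = 1 ∨ c = -1) ∧ (∀ χ ∈ E, C χ = c) ∧
      (E.card : ℤ) * c ^ 2 - 2 * ε * c + ∑ χ ∈ Rs \ E, C χ ^ 2 = 2 := by
  classical
  obtain ⟨f, hf⟩ : ∃ f : ℤ, f = (E.card : ℤ) := ⟨_, rfl⟩
  have hf3 : 3 ≤ f := by rw [hf]; exact_mod_cast h3
  have heq : ∑ χ ∈ E, (f * C χ ^ 2 - 2 * ε * C χ) + f * ∑ χ ∈ Rs \ E, C χ ^ 2 = 2 * f := by
    have := T.eq
    rw [← sum_sdiff T.sub, mul_add, ← hf] at this
    rw [sum_sub_distrib, ← mul_sum, ← mul_sum]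
    linarith
  have hnn : ∀ χ ∈ E, 0 ≤ f * C χ ^ 2 - 2 * ε * C χ := fun χ _ => by
    rcases eq_or_ne (C χ) 0 with h0 | h0
    · rw [h0]; simp
    · have h1 : 1 ≤ |C χ| := Int.one_le_abs h0
      have h2 : ε * C χ ≤ |C χ| := by
        rcases T.sign with e | e <;> rw [e]
        · simpa using le_abs_self (C χ)
        · simpa using neg_le_abs (C χ)
      nlinarith [sq_abs (C χ)]
  have hrest : 0 ≤ ∑ χ ∈ Rs \ E, C χ ^ 2 := sum_nonneg fun χ _ => sq_nonneg _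
  have hle : ∀ χ ∈ E, |C χ| ≤ 1 := by
    intro χ hχ
    by_contra hne
    have h1 : 2 ≤ |C χ| := by omega
    have h2 : ε * C χ ≤ |C χ| := by
      rcases T.sign with e | e <;> rw [e]
      · simpa using le_abs_self (C χ)
      · simpa using neg_le_abs (C χ)
    have h3' := single_le_sum hnn hχ
    have h4 : f * (2 * |C χ|) ≤ f * |C χ| ^ 2 :=
      mul_le_mul_of_nonneg_left (by nlinarith) (by linarith)
    have h5 : (f - 1) * 2 ≤ (f - 1) * |C χ| := mul_le_mul_of_nonneg_left h1 (by linarith)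
    have h6 : 0 ≤ f * ∑ χ ∈ Rs \ E, C χ ^ 2 := mul_nonneg (by linarith) hrest
    rw [sq_abs] at h4
    linarith
  obtain ⟨χ₀, hχ₀⟩ : E.Nonempty := card_pos.1 (by omega)
  have hc : ∀ χ ∈ E, C χ = C χ₀ := by
    intro χ hχ
    have h1 := T.dvd χ
    have h2 := T.dvd χ₀
    rw [if_pos hχ] at h1
    rw [if_pos hχ₀, ← T.degEq χ hχ χ₀ hχ₀] at h2
    have h3' := dvd_sub h2 h1
    have ha : (13 : ℤ) ≤ (Nat.card A : ℤ) := by
      rw [← T.card]; push_cast; rw [← hf]; linarith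
    have := Int.eq_zero_of_abs_lt_dvd h3' (by
      have := hle χ hχ
      have := hle χ₀ hχ₀
      rw [abs_le] at *
      rw [abs_lt]
      constructor <;> linarith)
    linarith
  refine ⟨C χ₀, ?_, hc, ?_⟩
  · have := hle χ₀ hχ₀
    rw [abs_le] at this
    omega
  · rw [sum_congr rfl (fun χ hχ => by rw [hc χ hχ]), sum_const, nsmul_eq_mul, ← hf] at heq
    rw [← hf]
    have : f * (f * C χ₀ ^ 2 - 2 * ε * C χ₀ + ∑ χ ∈ Rs \ E, C χ ^ 2) = f * 2 := by linarith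
    exact mul_left_cancel₀ (by omega) this

theorem TData.sum_rest {A : Subgroup G} {Rs : Finset (IrrCharacter G)} {ε : ℤ}
    {C : IrrCharacter G → ℤ} {E : Finset (IrrCharacter G)} (T : TData A Rs ε C E) (h5 : 5 ≤ E.card) :
    (∀ χ ∈ E, C χ = 0) ∧ ∑ χ ∈ Rs \ E, C χ ^ 2 = 2 := by
  obtain ⟨c, hc, hall, heq⟩ := T.exists_const (by omega)
  have hrest : 0 ≤ ∑ χ ∈ Rs \ E, C χ ^ 2 := sum_nonneg fun χ _ => sq_nonneg _
  have h5' : (5 : ℤ) ≤ E.card := by exact_mod_cast h5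
  rcases hc with rfl | rfl | rfl
  · exact ⟨hall, by simpa using heq⟩
  · exfalso
    rcases T.sign with e | e <;> rw [e] at heq <;> linarith
  · exfalso
    rcases T.sign with e | e <;> rw [e] at heq <;> linarith

/-- The families of two tori are disjoint, and each is constant on the other torus. -/
theorem TData.cross {A B : Subgroup G} {Rs : Finset (IrrCharacter G)} {εA εB : ℤ}
    {CA CB : IrrCharacter G → ℤ} {EA EB : Finset (IrrCharacter G)} (TA : TData A Rs εA CA EA)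
    (TB : TData B Rs εB CB EB) (hAB : ∀ x ∈ A, ∀ k : G, k⁻¹ * x * k ∈ B → x = 1)
    (hA2 : ∃ x ∈ A, x ≠ 1) :
    (∀ χ ∈ EB, χ ∉ EA) ∧ ∀ χ ∈ EB, ∀ χ' ∈ EB, CA χ = CA χ' := by
  classical
  have hag : ∀ χ ∈ EB, ∀ χ' ∈ EB, ∀ x ∈ A, (χ : G → ℂ) x = (χ' : G → ℂ) x :=
    fun χ hχ χ' hχ' x hx => TB.agree χ hχ χ' hχ' x (hAB x hx)
  have hdisj : ∀ χ ∈ EB, χ ∉ EA := by
    intro χ hχ hχA
    obtain ⟨χ', hχ', hne⟩ := exists_mem_ne (by have := TB.two; omega : 1 < EB.card) χ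
    by_cases hA' : χ' ∈ EA
    · exact hne (TA.dist χ' hA' χ hχA fun x hx _ => hag χ' hχ' χ hχ x hx)
    · exact TA.noncst χ hχA ⟨CA χ', fun x hx hx1 => by
        rw [hag χ hχ χ' hχ' x hx]; exact TA.const χ' hA' x hx hx1⟩
  refine ⟨hdisj, fun χ hχ χ' hχ' => ?_⟩
  obtain ⟨x, hx, hx1⟩ := hA2
  have := hag χ hχ χ' hχ' x hx
  rw [TA.const χ (hdisj χ hχ) x hx hx1, TA.const χ' (hdisj χ' hχ') x hx hx1] at this
  exact_mod_cast this

end Data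

variable {F : Type*} [Field F] {m : ℕ} (h : Hyp F m) [Fintype (Cfsg.Sz F m)]
include h

theorem exists_rest [Fintype (IrrCharacter (Cfsg.Sz F m))] :
    ∃ (Rs : Finset (IrrCharacter (Cfsg.Sz F m))) (k : IrrCharacter (Cfsg.Sz F m) → ℕ),
      (∃ χ : IrrCharacter (Cfsg.Sz F m), charDegree (χ : Cfsg.Sz F m → ℂ) = (2 ^ (2 * m + 1)) ^ 2) ∧
      (∃ χ : IrrCharacter (Cfsg.Sz F m), charDegree (χ : Cfsg.Sz F m → ℂ) = qq m) ∧
      (∀ χ : IrrCharacter (Cfsg.Sz F m), χ ∉ Rs → charDegree (χ : Cfsg.Sz F m → ℂ) = 1 ∨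
        charDegree (χ : Cfsg.Sz F m → ℂ) = (2 ^ (2 * m + 1)) ^ 2 ∨
        charDegree (χ : Cfsg.Sz F m → ℂ) = qq m) ∧
      (∀ χ ∈ Rs, charDegree (χ : Cfsg.Sz F m → ℂ) = k χ * (2 ^ (2 * m + 1) - 1)) ∧
      (2 * ∑ χ ∈ Rs, (k χ : ℤ) ^ 2 =
        (2 : ℤ) ^ (2 * m + 1) * (((2 : ℤ) ^ (2 * m + 1)) ^ 2 - 1)) ∧
      (∀ χ : IrrCharacter (Cfsg.Sz F m), χ ∉ Rs →
        ∀ g, conj ((χ : Cfsg.Sz F m → ℂ) g) = (χ : Cfsg.Sz F m → ℂ) g) ∧
      ∀ g ∈ freeSet F m, ∀ a : ℕ, Nat.card (tor g) = a → 9 ≤ a →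
        Nat.card (Subgroup.normalizer (tor g : Set (Cfsg.Sz F m))) = 4 * Nat.card (tor g) →
        ∃ (ε : ℤ) (C : IrrCharacter (Cfsg.Sz F m) → ℤ) (E : Finset (IrrCharacter (Cfsg.Sz F m))),
          TData (tor g) Rs ε C E := by
  classical
  obtain ⟨St, P, hSt1, hStP, hP1, hStd, hPd, hPc, hfree, hreal, hdvd⟩ := SzBorel.exists_borelData h
  set one : IrrCharacter (Cfsg.Sz F m) := ⟨_, isIrrCharacter_one⟩ with hone
  set S := insert one (insert St P) with hS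
  set Rs : Finset (IrrCharacter (Cfsg.Sz F m)) := Sᶜ with hRs
  have hSm : ∀ χ, χ ∈ S ↔ χ = one ∨ χ = St ∨ χ ∈ P := by simp [hS]
  have hone_ne : one ∉ insert St P := by
    rw [mem_insert]
    rintro (e | e)
    · exact hSt1 (congrArg Subtype.val e).symm
    · exact hP1 one e rfl
  have hdeg1 : charDegree (one : Cfsg.Sz F m → ℂ) = 1 := by simp [hone, charDegree]
  set q := 2 ^ (2 * m + 1) with hq
  have hq8 : 8 ≤ q := q_ge h.one_le
  have hk : ∀ χ : IrrCharacter (Cfsg.Sz F m), ∃ k, χ ∈ Rs →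
      charDegree (χ : Cfsg.Sz F m → ℂ) = k * (q - 1) := by
    intro χ
    by_cases hχ : χ ∈ Rs
    · rw [hRs, mem_compl, hSm] at hχ
      push Not at hχ
      obtain ⟨k, hk⟩ := hdvd χ (fun e => hχ.1 (Subtype.ext e)) hχ.2.1 hχ.2.2
      exact ⟨k, fun _ => by rw [hk, mul_comm]⟩
    · exact ⟨0, fun e => absurd e hχ⟩
  choose k hk using hk
  have hnot : ∀ χ, χ ∉ Rs → χ = one ∨ χ = St ∨ χ ∈ P := fun χ hχ => (hSm χ).1 (by simpa [hRs] using hχ)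
  refine ⟨Rs, k, ⟨St, hStd⟩, ?_, ?_, hk, ?_, ?_, ?_⟩
  · obtain ⟨χ, hχ⟩ : P.Nonempty := card_pos.1 (by omega)
    exact ⟨χ, hPd χ hχ⟩
  · intro χ hχ
    rcases hnot χ hχ with rfl | rfl | hP
    · exact Or.inl hdeg1
    · exact Or.inr (Or.inl hStd)
    · exact Or.inr (Or.inr (hPd χ hP))
  · have hsum := Correspondences.sum_charDegree_sq (G := Cfsg.Sz F m)
    rw [← sum_add_sum_compl S, ← hRs, hS, sum_insert hone_ne, sum_insert hStP, hdeg1, hStd,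
      sum_congr rfl (g := fun _ => qq m ^ 2) (fun χ hχ => by rw [hPd χ hχ]), sum_const, smul_eq_mul,
      sum_congr rfl (g := fun χ => k χ ^ 2 * (q - 1) ^ 2) (fun χ hχ => by rw [hk χ hχ, mul_pow]),
      ← sum_mul, h.card_group, ← hq, qq, ← hq] at hsum
    have hq' : ((2 : ℤ) ^ (2 * m + 1)) = (q : ℤ) := by rw [hq]; push_cast; ring
    rw [hq']
    have hs' := congrArg (fun n : ℕ => (n : ℤ)) hsum
    push_cast [Nat.cast_sub (show 1 ≤ q by omega)] at hs'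
    have hP' : 2 * (P.card : ℤ) + 2 = q := by exact_mod_cast hPc
    have hne : ((q : ℤ) - 1) ^ 2 ≠ 0 := by
      have : (8 : ℤ) ≤ q := by exact_mod_cast hq8
      exact pow_ne_zero 2 (by omega)
    apply mul_left_cancel₀ hne
    linear_combination 2 * hs' - ((q : ℤ) ^ 2 + 1) ^ 2 * hP'
  · intro χ hχ g
    rcases hnot χ hχ with rfl | rfl | hP
    · simp [hone]
    · exact (hreal g).1
    · exact (hreal g).2 χ hP
  · intro g hg a ha ha9 hN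
    subst ha
    obtain ⟨-, hdvdq, hC⟩ := h.torus_spec hg.1 hg.2
    obtain ⟨e, -, -, -, -, -, hconj, -⟩ := h.tor_data hg
    have hodd : Odd (Nat.card (tor g)) := (qq_odd m).of_dvd_nat hdvdq
    have hidx : ((tor g).subgroupOf (Subgroup.normalizer (tor g : Set (Cfsg.Sz F m)))).index = 4 := by
      have h1 := Subgroup.card_mul_index
        ((tor g).subgroupOf (Subgroup.normalizer (tor g : Set (Cfsg.Sz F m))))
      rw [Nat.card_congr (Subgroup.subgroupOfEquivOfLe Subgroup.le_normalizer).toEquiv, hN,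
        mul_comm 4] at h1
      exact mul_left_cancel₀ Nat.card_pos.ne' h1
    obtain ⟨ε, C, E, hε, hEc, hcst, hdv, hdeq, hag, hdist, hnc, hre, heq⟩ :=
      SzTorus.exists_torusData (A := tor g) hodd (by omega) hC hidx
    have hf2 : 2 ≤ E.card := by omega
    have hfree' : ∀ x ∈ tor g, x ≠ 1 → x ∈ freeSet F m :=
      fun x hx hx1 => hconj ⟨hx1, 1, by simpa using hx⟩
    obtain ⟨x₀, hx₀, hx₀1⟩ : ∃ x ∈ tor g, x ≠ 1 :=
      ⟨g, Subgroup.mem_centralizer_singleton_iff.2 rfl, hg.1⟩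
    have hsub : E ⊆ Rs := by
      intro χ hχ
      by_contra hχR
      refine hnc hf2 χ hχ ?_
      rcases hnot χ hχR with rfl | rfl | hP
      · exact ⟨1, fun x _ _ => rfl⟩
      · exact ⟨-1, fun x hx hx1 => (hfree x (hfree' x hx hx1).2).1⟩
      · exact ⟨0, fun x hx hx1 => (hfree x (hfree' x hx hx1).2).2 χ hP⟩
    have hnE : ∀ χ, χ ∉ Rs → χ ∉ E := fun χ h1 h2 => h1 (hsub h2)
    have hval : ∀ χ, χ ∉ Rs → (C χ : ℂ) = (χ : Cfsg.Sz F m → ℂ) x₀ :=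
      fun χ hχ => (hcst χ (hnE χ hχ) x₀ hx₀ hx₀1).symm
    have hfx := hfree x₀ (hfree' x₀ hx₀ hx₀1).2
    have hSR : ∀ χ ∈ S, χ ∉ Rs := fun χ hχ => by simp [hRs, hχ]
    have hC1 : C one = 1 := Int.cast_injective (α := ℂ) (by
      rw [hval one (hSR _ (by simp [hS]))]; simp [hone])
    have hC2 : C St = -1 := Int.cast_injective (α := ℂ) (by
      rw [hval St (hSR _ (by simp [hS])), hfx.1]; simp)
    have hC3 : ∀ χ ∈ P, C χ = 0 := fun χ hχ => Int.cast_injective (α := ℂ) (by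
      rw [hval χ (hSR _ (by simp [hS, hχ])), hfx.2 χ hχ]; simp)
    refine ⟨ε, C, E, hε, hEc, hsub, hf2, hcst, hdv, hdeq, hag, hdist, hnc hf2, hre, ?_⟩
    rw [← sum_add_sum_compl S, ← hRs, hS, sum_insert hone_ne, sum_insert hStP, hC1, hC2,
      sum_congr rfl (g := fun _ => (0 : ℤ)) (fun χ hχ => by rw [hC3 χ hχ]; ring), sum_const_zero] at heq
    linarith

/-- For `q = 8`. -/
theorem degrees_eight (hm1 : m = 1) [Fintype (IrrCharacter (Cfsg.Sz F m))]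
    {Rs : Finset (IrrCharacter (Cfsg.Sz F m))} {k : IrrCharacter (Cfsg.Sz F m) → ℕ}
    (hk : ∀ χ ∈ Rs, charDegree (χ : Cfsg.Sz F m → ℂ) = k χ * 7)
    (hsum : ∑ χ ∈ Rs, (k χ : ℤ) ^ 2 = 252)
    (hreal : ∀ χ : IrrCharacter (Cfsg.Sz F m), χ ∉ Rs →
      ∀ g, conj ((χ : Cfsg.Sz F m → ℂ) g) = (χ : Cfsg.Sz F m → ℂ) g)
    {g : Cfsg.Sz F m} {ε : ℤ} {C : IrrCharacter (Cfsg.Sz F m) → ℤ}
    {E : Finset (IrrCharacter (Cfsg.Sz F m))} (T : TData (tor g) Rs ε C E)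
    (ha : Nat.card (tor g) = 13) :
    (∃ χ ∈ Rs, k χ = 5) ∧ (∃ χ ∈ Rs, k χ = 2) ∧ (∃ χ ∈ Rs, k χ = 13) ∧
      ∀ χ ∈ Rs, k χ = 5 ∨ k χ = 2 ∨ k χ = 13 := by
  classical
  have := h.finite
  have hE3 : E.card = 3 := by have := T.card; omega
  obtain ⟨c, hc, hcall, hceq⟩ := T.exists_const (le_of_eq hE3.symm)
  rw [hE3] at hceq
  push_cast at hceq
  have hdvd : ∀ χ ∈ Rs, (13 : ℤ) ∣ 7 * (k χ : ℤ) - C χ - if χ ∈ E then 4 * ε else 0 := fun χ hχ => by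
    have := T.dvd χ
    rw [ha, hk χ hχ] at this
    push_cast at this
    rwa [mul_comm (k χ : ℤ) 7] at this
  have hkpos : ∀ χ ∈ Rs, 1 ≤ k χ := fun χ hχ => by
    by_contra h0
    have e : charDegree (χ : Cfsg.Sz F m → ℂ) = 0 := by rw [hk χ hχ]; simp [show k χ = 0 by omega]
    obtain ⟨d, hd0, hd⟩ := exists_degree_of_isIrr χ.2
    simp [charDegree, hd] at e
    omega
  -- a character that is not real
  set g₀ : Cfsg.Sz F m := h.u 1 0 with hg₀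
  have hord : orderOf g₀ = 4 := h.orderOf_u one_ne_zero
  have hg₀1 : g₀ ≠ 1 := fun e => by simp [e] at hord
  have hnconj : ¬ IsConj g₀ g₀⁻¹ := fun e => by
    have := (h.real_iff (k := 1) (by simpa [hg₀] using h.u_mem_U (1 : F) 0) hg₀1).1 e
    omega
  obtain ⟨χ₀, hχ₀⟩ : ∃ χ : IrrCharacter (Cfsg.Sz F m),
      conj ((χ : Cfsg.Sz F m → ℂ) g₀) ≠ (χ : Cfsg.Sz F m → ℂ) g₀ := by
    by_contra hall
    push Not at hall
    have h1 := sum_mul_conj g₀ g₀⁻¹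
    have h2 := sum_mul_conj g₀ g₀
    rw [if_neg hnconj] at h1
    rw [if_pos (IsConj.refl _)] at h2
    rw [sum_congr rfl (g := fun χ : IrrCharacter (Cfsg.Sz F m) => (χ : Cfsg.Sz F m → ℂ) g₀ *
      conj ((χ : Cfsg.Sz F m → ℂ) g₀)) (fun χ _ => by rw [IsIrrCharacter.inv χ.2, hall χ, hall χ]),
      h2] at h1
    exact Nat.card_pos.ne' (by exact_mod_cast h1)
  set χ₁ : IrrCharacter (Cfsg.Sz F m) := ⟨_, isIrrCharacter_conj χ₀.2⟩ with hχ₁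
  have hv₁ : ∀ y, (χ₁ : Cfsg.Sz F m → ℂ) y = conj ((χ₀ : Cfsg.Sz F m → ℂ) y) := fun y => rfl
  have hne : χ₀ ≠ χ₁ := fun e => hχ₀ (by rw [← hv₁, ← e])
  have hag : ∀ x ∈ tor g, (χ₁ : Cfsg.Sz F m → ℂ) x = (χ₀ : Cfsg.Sz F m → ℂ) x := fun x hx => by
    rw [hv₁, T.real χ₀ x hx]
  have h₀E : χ₀ ∉ E := by
    intro he
    by_cases h1 : χ₁ ∈ E
    · exact hne (T.dist χ₀ he χ₁ h1 fun x hx _ => (hag x hx).symm)
    · exact T.noncst χ₀ he ⟨C χ₁, fun x hx hx1 => by rw [← hag x hx]; exact T.const χ₁ h1 x hx hx1⟩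
  have h₁E : χ₁ ∉ E := fun he => T.noncst χ₁ he
    ⟨C χ₀, fun x hx hx1 => by rw [hag x hx]; exact T.const χ₀ h₀E x hx hx1⟩
  have h₀R : χ₀ ∈ Rs := by_contra fun hh => hχ₀ (hreal χ₀ hh g₀)
  have h₁R : χ₁ ∈ Rs := by_contra fun hh => by
    have := hreal χ₁ hh g₀
    rw [hv₁, Complex.conj_conj] at this
    exact hχ₀ this.symm
  obtain ⟨x₀, hx₀, hx₀1⟩ : ∃ x ∈ tor g, x ≠ 1 := by
    have : Nontrivial (tor g) := Finite.one_lt_card_iff_nontrivial.1 (by omega)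
    obtain ⟨y, hy⟩ := exists_ne (1 : tor g)
    exact ⟨y, y.2, fun e => hy (Subtype.ext e)⟩
  have hCeq : C χ₁ = C χ₀ := by
    have := hag x₀ hx₀
    rw [T.const χ₁ h₁E x₀ hx₀ hx₀1, T.const χ₀ h₀E x₀ hx₀ hx₀1] at this
    exact_mod_cast this
  have hkeq : k χ₁ = k χ₀ := by
    obtain ⟨d, -, hd⟩ := exists_degree_of_isIrr χ₀.2
    have e : charDegree (χ₁ : Cfsg.Sz F m → ℂ) = charDegree (χ₀ : Cfsg.Sz F m → ℂ) := by
      simp [charDegree, hv₁, hd]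
    rw [hk χ₁ h₁R, hk χ₀ h₀R] at e
    omega
  set S := Rs \ E with hS
  have hp : ({χ₀, χ₁} : Finset (IrrCharacter (Cfsg.Sz F m))) ⊆ S := by
    intro χ hχ
    rw [mem_insert, mem_singleton] at hχ
    rcases hχ with rfl | rfl <;> simp [hS, h₀R, h₁R, h₀E, h₁E]
  have hksum : ∑ χ ∈ S \ {χ₀, χ₁}, (k χ : ℤ) ^ 2 + 2 * (k χ₀ : ℤ) ^ 2 +
      ∑ χ ∈ E, (k χ : ℤ) ^ 2 = 252 := by
    rw [← hsum, ← sum_sdiff T.sub, ← hS, ← sum_sdiff hp, sum_pair hne, hkeq]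
    ring
  have hcsum : 3 * c ^ 2 - 2 * ε * c + (∑ χ ∈ S \ {χ₀, χ₁}, C χ ^ 2) + 2 * C χ₀ ^ 2 = 2 := by
    rw [← sum_sdiff hp, sum_pair hne, hCeq] at hceq
    linarith
  have hnn2 : 0 ≤ ∑ χ ∈ S \ {χ₀, χ₁}, C χ ^ 2 := sum_nonneg fun χ _ => sq_nonneg _
  have hkn1 : 0 ≤ ∑ χ ∈ S \ {χ₀, χ₁}, (k χ : ℤ) ^ 2 := sum_nonneg fun χ _ => sq_nonneg _
  have hkn2 : 0 ≤ ∑ χ ∈ E, (k χ : ℤ) ^ 2 := sum_nonneg fun χ _ => sq_nonneg _
  -- the value on the exceptional characters vanishes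
  have hC₀ : C χ₀ ^ 2 = 1 ∧ c = 0 ∧ ∑ χ ∈ S \ {χ₀, χ₁}, C χ ^ 2 = 0 := by
    have hk0 : C χ₀ ≠ 0 := fun e => by
      have h13 := hdvd χ₀ h₀R
      rw [e, if_neg h₀E, sub_zero, sub_zero] at h13
      have h13' : 13 ≤ (k χ₀ : ℤ) := by
        have := hkpos χ₀ h₀R
        obtain ⟨t, ht⟩ := h13
        omega
      nlinarith
    have h1 : 1 ≤ C χ₀ ^ 2 := one_le_sq hk0
    have h2 : 0 ≤ 3 * c ^ 2 - 2 * ε * c := by
      rcases hc with rfl | rfl | rfl <;> rcases T.sign with rfl | rfl <;> norm_num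
    refine ⟨by omega, ?_, by omega⟩
    rcases hc with rfl | rfl | rfl
    · rfl
    all_goals (rcases T.sign with rfl | rfl <;> norm_num at hcsum <;> omega)
  obtain ⟨hC₀, rfl, hrest⟩ := hC₀
  have hrest' : ∀ χ ∈ S \ {χ₀, χ₁}, C χ = 0 := fun χ hχ =>
    sq_eq_zero_iff.1 ((sum_eq_zero_iff_of_nonneg fun χ _ => sq_nonneg _).1 hrest χ hχ)
  have hk13 : ∀ χ ∈ S \ {χ₀, χ₁}, (13 : ℤ) ∣ k χ ∧ 1 ≤ k χ := by
    intro χ hχ
    obtain ⟨hχR, hχE⟩ := mem_sdiff.1 (mem_sdiff.1 hχ).1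
    have h13 := hdvd χ hχR
    rw [hrest' χ hχ, if_neg hχE, sub_zero, sub_zero] at h13
    exact ⟨Int.dvd_of_dvd_mul_right_of_gcd_one h13 (by norm_num), hkpos χ hχR⟩
  obtain ⟨χE, hχE⟩ : E.Nonempty := card_pos.1 (by omega)
  have hkE : ∀ χ ∈ E, k χ = k χE := fun χ hχ => by
    have := T.degEq χ hχ χE hχE
    rw [hk χ (T.sub hχ), hk χE (T.sub hχE)] at this
    omega
  rw [sum_congr rfl (s₁ := E) (g := fun _ => (k χE : ℤ) ^ 2) (fun χ hχ => by rw [hkE χ hχ]), sum_const,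
    nsmul_eq_mul, hE3] at hksum
  have hEd := hdvd χE (T.sub hχE)
  rw [hcall χE hχE, if_pos hχE, sub_zero] at hEd
  push_cast at hksum
  have hkE9 : (k χE : ℤ) ≤ 9 := by nlinarith
  have hk011 : (k χ₀ : ℤ) ≤ 11 := by nlinarith
  have h0d := hdvd χ₀ h₀R
  rw [if_neg h₀E, sub_zero] at h0d
  obtain ⟨t, ht⟩ := hEd
  obtain ⟨s, hs⟩ := h0d
  have hCabs : C χ₀ = 1 ∨ C χ₀ = -1 := sq_eq_one_iff.1 hC₀
  have h1E := hkpos χE (T.sub hχE)
  have h10 := hkpos χ₀ h₀R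
  have hE58 : k χE = 5 ∨ k χE = 8 := by rcases T.sign with e | e <;> rw [e] at ht <;> omega
  have h0211 : k χ₀ = 2 ∨ k χ₀ = 11 := by rcases hCabs with e | e <;> rw [e] at hs <;> omega
  have hk2 : k χ₀ = 2 := by
    rcases h0211 with e | e
    · exact e
    · exfalso
      rw [e] at hksum
      rcases hE58 with e' | e' <;> rw [e'] at hksum <;> norm_num at hksum <;> omega
  rw [hk2] at hksum
  have hbig : ∀ χ ∈ S \ {χ₀, χ₁}, (169 : ℤ) ≤ (k χ : ℤ) ^ 2 := fun χ hχ => by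
    obtain ⟨hd, h1⟩ := hk13 χ hχ
    have : (13 : ℤ) ≤ k χ := Int.le_of_dvd (by omega) hd
    nlinarith
  have hcard := card_nsmul_le_sum _ _ _ hbig
  rw [nsmul_eq_mul] at hcard
  have hcard1 : (S \ {χ₀, χ₁}).card = 1 ∧ k χE = 5 := by
    rcases hE58 with e | e <;> rw [e] at hksum <;> norm_num at hksum
    · refine ⟨?_, e⟩
      rcases Nat.eq_zero_or_pos (S \ {χ₀, χ₁}).card with h0 | h0
      · rw [card_eq_zero.1 h0, sum_empty] at hksum; norm_num at hksum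
      · omega
    · exfalso
      rcases Nat.eq_zero_or_pos (S \ {χ₀, χ₁}).card with h0 | h0
      · rw [card_eq_zero.1 h0, sum_empty] at hksum; norm_num at hksum
      · omega
  obtain ⟨χ₂, hχ₂⟩ := card_eq_one.1 hcard1.1
  have hk₂ : k χ₂ = 13 := by
    rw [hχ₂, sum_singleton, hcard1.2] at hksum
    norm_num at hksum
    have : ((k χ₂ : ℤ) - 13) * ((k χ₂ : ℤ) + 13) = 0 := by linarith
    rcases mul_eq_zero.1 this with e | e <;> omega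
  have h₂R : χ₂ ∈ Rs := (mem_sdiff.1 (mem_sdiff.1 (hχ₂ ▸ mem_singleton_self χ₂)).1).1
  refine ⟨⟨χE, T.sub hχE, hcard1.2⟩, ⟨χ₀, h₀R, hk2⟩, ⟨χ₂, h₂R, hk₂⟩, fun χ hχ => ?_⟩
  by_cases hχE' : χ ∈ E
  · exact Or.inl ((hkE χ hχE').trans hcard1.2)
  by_cases h0 : χ = χ₀
  · exact Or.inr (Or.inl (h0 ▸ hk2))
  by_cases h1 : χ = χ₁
  · exact Or.inr (Or.inl (h1 ▸ hkeq.trans hk2))
  · have : χ ∈ S \ {χ₀, χ₁} := by simp [hS, hχ, hχE', h0, h1]
    rw [hχ₂, mem_singleton] at this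
    exact Or.inr (Or.inr (this ▸ hk₂))

omit h in
theorem dvd_own {a b q kk j : ℕ} {f ε : ℤ} (hε : ε = 1 ∨ ε = -1) (ha : (a : ℤ) = 4 * f + 1)
    (hkey : (a : ℤ) ∣ ((q : ℤ) - 1) * b + 4) (hk : kk = b * j)
    (hdvd : (a : ℤ) ∣ (kk : ℤ) * ((q : ℤ) - 1) - 4 * ε) :
    (a : ℤ) ∣ (j : ℤ) + ε := by
  subst hk
  have h4 : IsCoprime (a : ℤ) 4 := ⟨1, -f, by rw [ha]; ring⟩
  refine h4.dvd_of_dvd_mul_left ?_
  have := dvd_sub (hkey.mul_left (j : ℤ)) hdvd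
  push_cast at this
  convert this using 1
  ring

theorem torus_family [Fintype (IrrCharacter (Cfsg.Sz F m))]
    {Rs : Finset (IrrCharacter (Cfsg.Sz F m))} {k : IrrCharacter (Cfsg.Sz F m) → ℕ}
    (hk : ∀ χ ∈ Rs, charDegree (χ : Cfsg.Sz F m → ℂ) = k χ * (2 ^ (2 * m + 1) - 1))
    (hsum : 2 * ∑ χ ∈ Rs, (k χ : ℤ) ^ 2 =
        (2 : ℤ) ^ (2 * m + 1) * (((2 : ℤ) ^ (2 * m + 1)) ^ 2 - 1))
    {A B : Subgroup (Cfsg.Sz F m)} {εA εB : ℤ}
    {CA CB : IrrCharacter (Cfsg.Sz F m) → ℤ} {EA EB : Finset (IrrCharacter (Cfsg.Sz F m))}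
    (TA : TData A Rs εA CA EA) (TB : TData B Rs εB CB EB) {a b : ℕ} (ha : Nat.card A = a)
    (hb : Nat.card B = b) (hA6 : 5 ≤ EA.card) (hb2 : 2 ^ (2 * m + 1) ≤ 2 * b)
    (ha2 : 2 ^ (2 * m + 1) ≤ 2 * a) (hB6 : 5 ≤ EB.card)
    (hcop : (2 ^ (2 * m + 1) - 1).Coprime b)
    (hkey : (a : ℤ) ∣ ((2 : ℤ) ^ (2 * m + 1) - 1) * b + 4)
    (hBA : ∀ x ∈ B, ∀ y : Cfsg.Sz F m, y⁻¹ * x * y ∈ A → x = 1) :
    ∀ χ ∈ EA, χ ∉ EB ∧ CB χ = 0 ∧ k χ = b := by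
  classical
  have hx : ∃ x ∈ B, x ≠ 1 := by
    have : Nontrivial B := Finite.one_lt_card_iff_nontrivial.1 (by
      have := TB.card; omega)
    obtain ⟨y, hy⟩ := exists_ne (1 : B)
    exact ⟨y, y.2, fun e => hy (Subtype.ext e)⟩
  obtain ⟨hdisj, hconst⟩ := TB.cross TA hBA hx
  obtain ⟨hAz, -⟩ := TA.sum_rest hA6
  obtain ⟨hBz, hBsum⟩ := TB.sum_rest hB6
  intro χ hχ
  have hCB : CB χ = 0 := by
    have hsub : EA ⊆ Rs \ EB := fun x hx => mem_sdiff.2 ⟨TA.sub hx, hdisj x hx⟩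
    have h1 := sum_le_sum_of_subset_of_nonneg hsub (f := fun x => CB x ^ 2) fun x _ _ => sq_nonneg _
    rw [hBsum, sum_congr rfl (g := fun _ => CB χ ^ 2) (fun x hx => by rw [hconst x hx χ hχ]),
      sum_const, nsmul_eq_mul] at h1
    have h5 : (5 : ℤ) ≤ EA.card := by exact_mod_cast hA6
    have h0 := sq_nonneg (CB χ)
    exact sq_eq_zero_iff.1 (by nlinarith)
  refine ⟨hdisj χ hχ, hCB, ?_⟩
  have hd := TB.dvd χ
  rw [hCB, if_neg (hdisj χ hχ), sub_zero, sub_zero, hb, Int.natCast_dvd_natCast, hk χ (TA.sub hχ)] at hd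
  obtain ⟨j, hj⟩ := hcop.symm.dvd_of_dvd_mul_right hd
  have hd' := TA.dvd χ
  rw [hAz χ hχ, if_pos hχ, sub_zero, ha, hk χ (TA.sub hχ)] at hd'
  have hq8 : 8 ≤ 2 ^ (2 * m + 1) := q_ge h.one_le
  push_cast [Nat.cast_sub (show 1 ≤ 2 ^ (2 * m + 1) by omega)] at hd'
  have hacard : (a : ℤ) = 4 * (EA.card : ℤ) + 1 := by
    rw [← ha]; exact_mod_cast TA.card.symm
  have hjε : (a : ℤ) ∣ (j : ℤ) + εA := dvd_own TA.sign hacard
    (q := 2 ^ (2 * m + 1)) (by push_cast; exact hkey) hj (by push_cast; exact hd')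
  rw [hj]
  suffices j = 1 by rw [this, mul_one]
  by_contra hj1
  have hj0 : j ≠ 0 := fun e => by
    rw [e, Nat.cast_zero, zero_add] at hjε
    have := Int.le_of_dvd (by norm_num : (0 : ℤ) < 1)
      (by rcases TA.sign with e' | e' <;> rw [e'] at hjε <;> simpa using hjε : (a : ℤ) ∣ 1)
    omega
  have hjge : 4 * (EA.card : ℤ) ≤ j := by
    have := Int.le_of_dvd (by rcases TA.sign with e | e <;> omega) hjε
    rcases TA.sign with e | e <;> omega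
  have hsub := sum_le_sum_of_subset_of_nonneg TA.sub (f := fun x => (k x : ℤ) ^ 2) fun x _ _ => sq_nonneg _
  have hkall : ∀ x ∈ EA, k x = k χ := fun x hx => by
    have := TA.degEq x hx χ hχ
    rw [hk x (TA.sub hx), hk χ (TA.sub hχ)] at this
    exact Nat.eq_of_mul_eq_mul_right (by omega) this
  rw [sum_congr rfl (g := fun _ => (k χ : ℤ) ^ 2) (fun x hx => by rw [hkall x hx]), sum_const,
    nsmul_eq_mul, hj] at hsub
  push_cast at hsub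
  obtain ⟨Q, hQ⟩ : ∃ Q : ℤ, Q = (2 : ℤ) ^ (2 * m + 1) := ⟨_, rfl⟩
  have hbQ : Q ≤ 2 * (b : ℤ) := by rw [hQ]; exact_mod_cast hb2
  have haQ : Q ≤ 2 * (a : ℤ) := by rw [hQ]; exact_mod_cast ha2
  have hQ8 : 8 ≤ Q := by rw [hQ]; exact_mod_cast hq8
  rw [← hQ] at hsum
  have h5 : (5 : ℤ) ≤ EA.card := by exact_mod_cast hA6
  have e1 : (EA.card : ℤ) * (2 * b) ^ 2 * (4 * EA.card) ^ 2 ≤
      (EA.card : ℤ) * (2 * b) ^ 2 * (j : ℤ) ^ 2 :=
    mul_le_mul_of_nonneg_left (pow_le_pow_left₀ (by positivity) hjge 2) (by positivity)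
  have e2 : (EA.card : ℤ) * Q ^ 2 * (4 * EA.card) ^ 2 ≤
      (EA.card : ℤ) * (2 * b) ^ 2 * (4 * EA.card) ^ 2 :=
    mul_le_mul_of_nonneg_right (mul_le_mul_of_nonneg_left (pow_le_pow_left₀ (by linarith) hbQ 2)
      (by positivity)) (by positivity)
  have e3 : 2 * Q < 4 * (EA.card : ℤ) * (4 * EA.card) := by nlinarith
  have e4 : 2 * Q * Q ^ 2 < (EA.card : ℤ) * Q ^ 2 * (4 * EA.card) ^ 2 := by
    have hQ2 : 0 < Q ^ 2 := by positivity
    nlinarith [mul_lt_mul_of_pos_right e3 hQ2,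
      mul_le_mul_of_nonneg_right (show (1 : ℤ) ≤ EA.card by linarith)
        (show (0 : ℤ) ≤ Q ^ 2 * (4 * EA.card) ^ 2 by positivity)]
  nlinarith

/-- For `q ≥ 32`. -/
theorem degrees_big (hm2 : 2 ≤ m) [Fintype (IrrCharacter (Cfsg.Sz F m))]
    {Rs : Finset (IrrCharacter (Cfsg.Sz F m))} {k : IrrCharacter (Cfsg.Sz F m) → ℕ}
    (hk : ∀ χ ∈ Rs, charDegree (χ : Cfsg.Sz F m → ℂ) = k χ * (2 ^ (2 * m + 1) - 1))
    (hsum : 2 * ∑ χ ∈ Rs, (k χ : ℤ) ^ 2 =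
        (2 : ℤ) ^ (2 * m + 1) * (((2 : ℤ) ^ (2 * m + 1)) ^ 2 - 1))
    {A B : Subgroup (Cfsg.Sz F m)} {εA εB : ℤ}
    {CA CB : IrrCharacter (Cfsg.Sz F m) → ℤ} {EA EB : Finset (IrrCharacter (Cfsg.Sz F m))}
    (TA : TData A Rs εA CA EA) (TB : TData B Rs εB CB EB)
    (ha : Nat.card A = 2 ^ (2 * m + 1) + 2 ^ (m + 1) + 1)
    (hb : Nat.card B = 2 ^ (2 * m + 1) - 2 ^ (m + 1) + 1) :
    (∃ χ ∈ Rs, k χ = Nat.card A) ∧ (∃ χ ∈ Rs, k χ = Nat.card B) ∧ (∃ χ ∈ Rs, Even (k χ)) ∧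
      ∀ χ ∈ Rs, Even (charDegree (χ : Cfsg.Sz F m → ℂ)) →
        (charDegree (χ : Cfsg.Sz F m → ℂ)).Coprime (qq m) := by
  classical
  obtain ⟨c1, c2, c3, c4⟩ := h.coprime_three
  set q := 2 ^ (2 * m + 1) with hq
  set r := 2 ^ (m + 1) with hr
  set a := Nat.card A with hA
  set b := Nat.card B with hB
  have hr2 : r * r = 2 * q := by rw [hr, hq, ← pow_add, ← pow_succ']; congr 1; omega
  have hr8 : 8 ≤ r := by
    rw [hr]; exact le_trans (by norm_num : 8 ≤ 2 ^ 3) (Nat.pow_le_pow_right (by norm_num) (by omega))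
  have hrq : r ≤ q := by nlinarith
  have hq32 : 32 ≤ q := by nlinarith
  have h4r : 4 * r ≤ q := by nlinarith
  rw [← ha, ← hb] at c3 c4
  rw [← ha] at c1
  rw [← hb] at c2
  have hcast : ((2 : ℤ) ^ (2 * m + 1)) = (q : ℤ) := by rw [hq]; push_cast; ring
  have haZ : (a : ℤ) = q + r + 1 := by rw [ha]; push_cast; ring
  have hbZ : (b : ℤ) = q - r + 1 := by rw [hb]; push_cast [Nat.cast_sub hrq]; ring
  have hr2Z : (r : ℤ) * r = 2 * q := by exact_mod_cast hr2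
  have hkeyA : (a : ℤ) ∣ ((2 : ℤ) ^ (2 * m + 1) - 1) * b + 4 := by
    refine ⟨(q : ℤ) - 2 * r + 3, ?_⟩
    rw [hcast, haZ, hbZ]
    linear_combination (2 : ℤ) * hr2Z
  have hkeyB : (b : ℤ) ∣ ((2 : ℤ) ^ (2 * m + 1) - 1) * a + 4 := by
    refine ⟨(q : ℤ) + 2 * r + 3, ?_⟩
    rw [hcast, haZ, hbZ]
    linear_combination (2 : ℤ) * hr2Z
  have hAB : ∀ x ∈ A, ∀ y : Cfsg.Sz F m, y⁻¹ * x * y ∈ B → x = 1 := by
    intro x hx y hy
    have h1 := Subgroup.orderOf_dvd_natCard A hx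
    have h2 := Subgroup.orderOf_dvd_natCard B hy
    rw [show y⁻¹ * x * y = MulAut.conj y⁻¹ x by simp, MulEquiv.orderOf_eq] at h2
    exact orderOf_eq_one_iff.1 (Nat.eq_one_of_dvd_coprimes c3 h1 h2)
  have hBA : ∀ x ∈ B, ∀ y : Cfsg.Sz F m, y⁻¹ * x * y ∈ A → x = 1 := by
    intro x hx y hy
    have h1 := Subgroup.orderOf_dvd_natCard B hx
    have h2 := Subgroup.orderOf_dvd_natCard A hy
    rw [show y⁻¹ * x * y = MulAut.conj y⁻¹ x by simp, MulEquiv.orderOf_eq] at h2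
    exact orderOf_eq_one_iff.1 (Nat.eq_one_of_dvd_coprimes c3.symm h1 h2)
  have hfA : 4 * EA.card + 1 = a := TA.card
  have hfB : 4 * EB.card + 1 = b := TB.card
  have hA6 : 5 ≤ EA.card := by omega
  have hB6 : 5 ≤ EB.card := by omega
  have hfamA := torus_family h hk hsum TA TB rfl rfl hA6 (by omega) (by omega) hB6 c2 hkeyA hBA
  have hfamB := torus_family h hk hsum TB TA rfl rfl hB6 (by omega) (by omega) hA6 c1 hkeyB hAB
  obtain ⟨hAz, hAsum⟩ := TA.sum_rest hA6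
  obtain ⟨hBz, hBsum⟩ := TB.sum_rest hB6
  set R := (Rs \ EA) \ EB with hR
  have hsubB : EB ⊆ Rs \ EA := fun x hx => mem_sdiff.2 ⟨TB.sub hx, (hfamB x hx).1⟩
  have hRm : ∀ x, x ∈ R ↔ x ∈ Rs ∧ x ∉ EA ∧ x ∉ EB := by simp [hR, and_assoc]
  have hRA : ∑ x ∈ R, CA x ^ 2 = 2 := by
    rw [← sum_sdiff hsubB, ← hR, sum_eq_zero (s := EB) fun x hx => by rw [(hfamB x hx).2.1]; ring,
      add_zero] at hAsum
    exact hAsum
  have hRB : ∑ x ∈ R, CB x ^ 2 = 2 := by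
    have hsubA : EA ⊆ Rs \ EB := fun x hx => mem_sdiff.2 ⟨TA.sub hx, (hfamA x hx).1⟩
    rw [← sum_sdiff hsubA, sdiff_sdiff_comm, ← hR,
      sum_eq_zero (s := EA) fun x hx => by rw [(hfamA x hx).2.1]; ring, add_zero] at hBsum
    exact hBsum
  have hRk : ∑ x ∈ R, (k x : ℤ) ^ 2 = q := by
    rw [← sum_sdiff TA.sub, ← sum_sdiff hsubB, ← hR,
      sum_congr rfl (s₁ := EA) (g := fun _ => (b : ℤ) ^ 2) (fun x hx => by rw [(hfamA x hx).2.2]),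
      sum_congr rfl (s₁ := EB) (g := fun _ => (a : ℤ) ^ 2) (fun x hx => by rw [(hfamB x hx).2.2]),
      sum_const, sum_const, nsmul_eq_mul, nsmul_eq_mul, hcast] at hsum
    have e1 : 4 * (EA.card : ℤ) = (q : ℤ) + r := by
      have : (4 : ℤ) * EA.card + 1 = a := by exact_mod_cast hfA
      rw [haZ] at this; linarith
    have e2 : 4 * (EB.card : ℤ) = (q : ℤ) - r := by
      have : (4 : ℤ) * EB.card + 1 = b := by exact_mod_cast hfB
      rw [hbZ] at this; linarith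
    rw [haZ, hbZ] at hsum
    apply mul_left_cancel₀ (show (4 : ℤ) ≠ 0 by norm_num)
    linear_combination 2 * hsum - ((q : ℤ) - r + 1) ^ 2 * e1 - ((q : ℤ) + r + 1) ^ 2 * e2 +
      (2 * (q : ℤ) + 4) * hr2Z
  have hne : ∀ x ∈ R, CA x ≠ 0 ∧ CB x ≠ 0 := by
    intro x hx
    obtain ⟨hxR, hxA, hxB⟩ := (hRm x).1 hx
    have hle : (k x : ℤ) ^ 2 ≤ q :=
      hRk ▸ single_le_sum (f := fun y => (k y : ℤ) ^ 2) (fun y _ => sq_nonneg _) hx
    have hpos : k x ≠ 0 := fun e0 => by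
      obtain ⟨d, hd0, hd⟩ := exists_degree_of_isIrr x.2
      have := hk x hxR
      simp [charDegree, hd, e0] at this
      omega
    constructor
    · intro e
      have hd := TA.dvd x
      rw [e, if_neg hxA, sub_zero, sub_zero, Int.natCast_dvd_natCast, hk x hxR] at hd
      have := Nat.le_of_dvd (Nat.pos_of_ne_zero hpos) (c1.symm.dvd_of_dvd_mul_right hd)
      have : (q : ℤ) + r + 1 ≤ k x := by rw [← haZ]; exact_mod_cast this
      nlinarith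
    · intro e
      have hd := TB.dvd x
      rw [e, if_neg hxB, sub_zero, sub_zero, Int.natCast_dvd_natCast, hk x hxR] at hd
      have := Nat.le_of_dvd (Nat.pos_of_ne_zero hpos) (c2.symm.dvd_of_dvd_mul_right hd)
      have h1 : (q : ℤ) - r + 1 ≤ k x := by rw [← hbZ]; exact_mod_cast this
      have h2 : (4 : ℤ) * r ≤ q := by exact_mod_cast h4r
      nlinarith
  have hcard : R.card = 2 := by
    have h1 : R.card • (1 : ℤ) ≤ ∑ x ∈ R, CA x ^ 2 := card_nsmul_le_sum _ _ _ fun x hx => by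
      exact one_le_sq (hne x hx).1
    rw [hRA, nsmul_eq_mul, mul_one] at h1
    have h2 : R.card ≤ 2 := by exact_mod_cast h1
    by_contra hne2
    interval_cases hc : R.card
    · rw [card_eq_zero.1 hc, sum_empty] at hRA; norm_num at hRA
    · obtain ⟨x, hx⟩ := card_eq_one.1 hc
      rw [hx, sum_singleton] at hRA
      have : |CA x| ≤ 1 := by nlinarith [sq_abs (CA x), abs_nonneg (CA x)]
      nlinarith [sq_abs (CA x), abs_nonneg (CA x)]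
    · exact hne2 rfl
  obtain ⟨x, y, hxy, hRxy⟩ := card_eq_two.1 hcard
  have hone : ∀ z ∈ R, CA z ^ 2 = 1 ∧ CB z ^ 2 = 1 := by
    intro z hz
    have hx' := hne x (by simp [hRxy])
    have hy' := hne y (by simp [hRxy])
    rw [hRxy, sum_pair hxy] at hRA hRB
    have : 1 ≤ CA x ^ 2 := one_le_sq hx'.1
    have : 1 ≤ CA y ^ 2 := one_le_sq hy'.1
    have : 1 ≤ CB x ^ 2 := one_le_sq hx'.2
    have : 1 ≤ CB y ^ 2 := one_le_sq hy'.2
    rw [hRxy, mem_insert, mem_singleton] at hz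
    rcases hz with rfl | rfl <;> constructor <;> omega
  have heven : ∀ z ∈ R, Even (k z) := by
    rw [hRxy, sum_pair hxy] at hRk
    have hq4 : (4 : ℤ) ∣ q := by
      rw [hq]; push_cast
      exact dvd_trans (by norm_num : (4 : ℤ) ∣ 2 ^ 2) (pow_dvd_pow 2 (by omega))
    obtain ⟨t, ht⟩ := hq4
    rw [ht] at hRk
    intro z hz
    rcases Nat.even_or_odd' (k x) with ⟨u, hu | hu⟩ <;>
      rcases Nat.even_or_odd' (k y) with ⟨v, hv | hv⟩ <;> rw [hu, hv] at hRk <;> push_cast at hRk <;>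
      ring_nf at hRk
    · rw [hRxy, mem_insert, mem_singleton] at hz
      rcases hz with rfl | rfl
      · exact ⟨u, by omega⟩
      · exact ⟨v, by omega⟩
    all_goals omega
  obtain ⟨χA, hχA⟩ : EA.Nonempty := card_pos.1 (by omega)
  obtain ⟨χB, hχB⟩ : EB.Nonempty := card_pos.1 (by omega)
  have hxR : x ∈ R := by simp [hRxy]
  refine ⟨⟨χB, TB.sub hχB, (hfamB χB hχB).2.2⟩, ⟨χA, TA.sub hχA, (hfamA χA hχA).2.2⟩,
    ⟨x, ((hRm x).1 hxR).1, heven x hxR⟩, fun χ hχ hev => ?_⟩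
  have hqodd : Odd (q - 1) := by rw [hq, ← h.card_units]; exact h.card_units_odd
  have haodd : Odd a := by rw [← hfA]; exact ⟨2 * EA.card, by ring⟩
  have hbodd : Odd b := by rw [← hfB]; exact ⟨2 * EB.card, by ring⟩
  have hχR : χ ∈ R := (hRm χ).2 ⟨hχ, fun hA' => by
      rw [hk χ hχ, (hfamA χ hA').2.2] at hev
      exact Nat.not_even_iff_odd.2 (hbodd.mul hqodd) hev,
    fun hB' => by
      rw [hk χ hχ, (hfamB χ hB').2.2] at hev
      exact Nat.not_even_iff_odd.2 (haodd.mul hqodd) hev⟩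
  obtain ⟨hCA, hCB⟩ := hone χ hχR
  obtain ⟨-, hnA, hnB⟩ := (hRm χ).1 hχR
  rw [← c4]
  refine Nat.Coprime.mul_right ?_ ?_
  · obtain ⟨t, ht⟩ := TA.dvd χ
    rw [if_neg hnA, sub_zero, ← hA] at ht
    exact Nat.isCoprime_iff_coprime.1 ⟨CA χ, -(CA χ * t), by linear_combination CA χ * ht + hCA⟩
  · obtain ⟨t, ht⟩ := TB.dvd χ
    rw [if_neg hnB, sub_zero, ← hB] at ht
    exact Nat.isCoprime_iff_coprime.1 ⟨CB χ, -(CB χ * t), by linear_combination CB χ * ht + hCB⟩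

/-- What the degree graph needs. -/
theorem degree_facts :
    ∃ a b : ℕ, a * b = qq m ∧
      (2 ^ (2 * m + 1)) ^ 2 ∈ charDegrees (Cfsg.Sz F m) ∧ qq m ∈ charDegrees (Cfsg.Sz F m) ∧
      a * (2 ^ (2 * m + 1) - 1) ∈ charDegrees (Cfsg.Sz F m) ∧
      b * (2 ^ (2 * m + 1) - 1) ∈ charDegrees (Cfsg.Sz F m) ∧
      (∃ j, Even j ∧ j * (2 ^ (2 * m + 1) - 1) ∈ charDegrees (Cfsg.Sz F m)) ∧
      ∀ d ∈ charDegrees (Cfsg.Sz F m), Even d → d.Coprime (qq m) := by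
  classical
  haveI := Fintype.ofFinite (IrrCharacter (Cfsg.Sz F m))
  obtain ⟨Rs, k, ⟨s₁, hs₁⟩, ⟨s₂, hs₂⟩, hout, hk, hsum, hreal, htor⟩ := exists_rest h
  obtain ⟨g₁, g₂, hg₁, hg₂, ca, cb, hNa, hNb, -⟩ := h.two_tori
  obtain ⟨-, -, -, c4⟩ := h.coprime_three
  refine ⟨_, _, c4, ⟨s₁, hs₁⟩, ⟨s₂, hs₂⟩, ?_⟩
  have hq8 : 8 ≤ 2 ^ (2 * m + 1) := q_ge h.one_le
  have hout' : ∀ χ : IrrCharacter (Cfsg.Sz F m), χ ∉ Rs → Even (charDegree (χ : Cfsg.Sz F m → ℂ)) →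
      (charDegree (χ : Cfsg.Sz F m → ℂ)).Coprime (qq m) := by
    intro χ hχ hev
    rcases hout χ hχ with e | e | e <;> rw [e] at hev ⊢
    · exact Nat.coprime_one_left _
    · refine Nat.Coprime.pow_left 2 (Nat.Coprime.pow_left _ ?_)
      exact Nat.coprime_two_left.2 (qq_odd m)
    · exact absurd hev (Nat.not_even_iff_odd.2 (qq_odd m))
  have hr2 : 2 ^ (m + 1) * 2 ^ (m + 1) = 2 * 2 ^ (2 * m + 1) := by
    rw [← pow_add, ← pow_succ']; congr 1; omega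
  obtain ⟨εA, CA, EA, TA⟩ :=
    htor g₁ hg₁ _ ca (by have := Nat.one_le_two_pow (n := m + 1); linarith) hNa
  rcases eq_or_ne m 1 with hm1 | hm1
  · subst hm1
    norm_num at hsum
    have hk' : ∀ χ ∈ Rs, charDegree (χ : Cfsg.Sz F 1 → ℂ) = k χ * 7 := fun χ hχ => by
      rw [hk χ hχ]; norm_num
    obtain ⟨⟨x, hx, hx5⟩, ⟨y, hy, hy2⟩, ⟨z, hz, hz13⟩, hall⟩ := degrees_eight h rfl (Rs := Rs) (k := k)
      hk' (by linarith) hreal TA (by rw [ca]; norm_num)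
    refine ⟨⟨z, by rw [hk' z hz, hz13]; norm_num⟩, ⟨x, by rw [hk' x hx, hx5]; norm_num⟩,
      ⟨k y, by rw [hy2]; exact even_two, y, hk y hy⟩, ?_⟩
    rintro d ⟨χ, rfl⟩ hev
    by_cases hχ : χ ∈ Rs
    · rw [hk' χ hχ] at hev ⊢
      rcases hall χ hχ with e | e | e <;> rw [e] at hev ⊢
      · revert hev; decide
      · decide
      · revert hev; decide
    · exact hout' χ hχ hev
  · have hm2 : 2 ≤ m := by have := h.one_le; omega
    have h32 : 32 ≤ 2 ^ (2 * m + 1) :=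
      le_trans (by norm_num : 32 ≤ 2 ^ 5) (Nat.pow_le_pow_right (by norm_num) (by omega))
    have hr4 : 4 * 2 ^ (m + 1) ≤ 2 ^ (2 * m + 1) := by
      rw [show (4 : ℕ) = 2 ^ 2 by norm_num, ← pow_add]
      exact Nat.pow_le_pow_right (by norm_num) (by omega)
    obtain ⟨εB, CB, EB, TB⟩ := htor g₂ hg₂ _ cb (by omega) hNb
    obtain ⟨⟨x, hx, hxa⟩, ⟨y, hy, hyb⟩, ⟨z, hz, hze⟩, hall⟩ := degrees_big h hm2 hk hsum TA TB ca cb
    refine ⟨⟨x, by rw [hk x hx, hxa, ca]⟩, ⟨y, by rw [hk y hy, hyb, cb]⟩, ⟨k z, hze, z, hk z hz⟩, ?_⟩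
    rintro d ⟨χ, rfl⟩ hev
    by_cases hχ : χ ∈ Rs
    · exact hall χ hχ hev
    · exact hout' χ hχ hev

end CfsgLib.BrauerCharacters.SzDegrees
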