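import Cfsg.Agent.Lib.Coherence.TIFN
import Cfsg.Agent.Lib.Frobenius.Exceptional
import Cfsg.Agent.Lib.CharTheory.Ito
import Cfsg.Agent.Lib.CharTheory.Orthogonality
import Cfsg.Agent.Lib.BlockLocal.Covering

/-!
# Character values on a torus with normaliser of index four
-/

set_option autoImplicit false
set_option linter.style.haveILetI false
set_option linter.unusedSectionVars false

namespace CfsgLib.BrauerCharacters.SzTorus

open Cfsg CfsgLib.CharTheory CfsgLib.CyclicTI CfsgLib.CyclicTI.Frob CfsgLib.Coherence.TIFN Finset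
open scoped ComplexConjugate

variable {G : Type*} [Group G] [Fintype G] {A : Subgroup G}

/-- An element of the normaliser inverts the torus. -/
theorem exists_inverting (hodd : Odd (Nat.card A))
    (hC : ∀ u ∈ A, u ≠ 1 → Subgroup.centralizer ({u} : Set G) = A)
    (hidx : (A.subgroupOf (Subgroup.normalizer (A : Set G))).index = 4) :
    ∃ n ∈ Subgroup.normalizer (A : Set G), ∀ x ∈ A, n * x * n⁻¹ = x⁻¹ := by
  set N := Subgroup.normalizer (A : Set G)
  haveI : Fact (Nat.Prime 2) := ⟨Nat.prime_two⟩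
  have h2 : 2 ∣ Nat.card N := by
    rw [← Subgroup.card_mul_index (A.subgroupOf N), hidx]
    exact Dvd.dvd.mul_left (by norm_num) _
  obtain ⟨n, hn⟩ := exists_prime_orderOf_dvd_card' 2 h2
  have hnA : (n : G) ∉ A := fun h => by
    have h' := Subgroup.orderOf_dvd_natCard A h
    rw [Subgroup.orderOf_coe, hn] at h'
    exact (Nat.not_even_iff_odd.2 hodd) (even_iff_two_dvd.2 h')
  have hn2 : (n : G) * n = 1 := by
    have h := pow_orderOf_eq_one n
    rw [hn, sq] at h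
    exact congrArg Subtype.val h
  refine ⟨n, n.2, fun x hx => ?_⟩
  have hy : (n : G) * x * (n : G)⁻¹ ∈ A := (Subgroup.mem_normalizer_iff.1 n.2 x).1 hx
  set u := x * ((n : G) * x * (n : G)⁻¹) with hu
  by_contra hne
  have hu1 : u ≠ 1 := fun e => hne (eq_inv_of_mul_eq_one_right e)
  apply hnA
  rw [← hC u (A.mul_mem hx hy) hu1, Subgroup.mem_centralizer_singleton_iff]
  have hx1 : x ≠ 1 := fun e => hne (by simp [e])
  have hcomm : x * ((n : G) * x * (n : G)⁻¹) = (n : G) * x * (n : G)⁻¹ * x := by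
    have h : (n : G) * x * (n : G)⁻¹ ∈ Subgroup.centralizer ({x} : Set G) := (hC x hx hx1).symm ▸ hy
    exact (Subgroup.mem_centralizer_singleton_iff.1 h).symm
  have hinv : (n : G)⁻¹ = n := inv_eq_of_mul_eq_one_right hn2
  rw [hinv] at hcomm hu
  calc (n : G) * u = (n : G) * (n * x * n * x) := by rw [hu, hcomm]
    _ = ((n : G) * n) * x * n * x := by group
    _ = x * n * x * ((n : G) * n) := by rw [hn2, one_mul, mul_one]
    _ = x * (n * x * n) * n := by group
    _ = u * n := by rw [hu]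

theorem exists_torusData [Fintype (IrrCharacter G)] (hodd : Odd (Nat.card A)) (hA : 2 ≤ Nat.card A)
    (hC : ∀ u ∈ A, u ≠ 1 → Subgroup.centralizer ({u} : Set G) = A)
    (hidx : (A.subgroupOf (Subgroup.normalizer (A : Set G))).index = 4) :
    ∃ (ε : ℤ) (C : IrrCharacter G → ℤ) (E : Finset (IrrCharacter G)),
      (ε = 1 ∨ ε = -1) ∧ 4 * E.card + 1 = Nat.card A ∧
      (∀ χ : IrrCharacter G, χ ∉ E → ∀ x ∈ A, x ≠ 1 → (χ : G → ℂ) x = C χ) ∧
      (∀ χ : IrrCharacter G, (Nat.card A : ℤ) ∣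
        (charDegree (χ : G → ℂ) : ℤ) - C χ - if χ ∈ E then 4 * ε else 0) ∧
      (∀ χ ∈ E, ∀ χ' ∈ E, charDegree (χ : G → ℂ) = charDegree (χ' : G → ℂ)) ∧
      (∀ χ ∈ E, ∀ χ' ∈ E, ∀ g : G, (∀ k : G, k⁻¹ * g * k ∈ A → g = 1) →
        (χ : G → ℂ) g = (χ' : G → ℂ) g) ∧
      (∀ χ ∈ E, ∀ χ' ∈ E, (∀ x ∈ A, x ≠ 1 → (χ : G → ℂ) x = (χ' : G → ℂ) x) → χ = χ') ∧
      (2 ≤ E.card → ∀ χ ∈ E, ¬ ∃ c : ℂ, ∀ x ∈ A, x ≠ 1 → (χ : G → ℂ) x = c) ∧
      (∀ χ : IrrCharacter G, ∀ x ∈ A, conj ((χ : G → ℂ) x) = (χ : G → ℂ) x) ∧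
      (E.card : ℤ) * ∑ χ : IrrCharacter G, C χ ^ 2 - 2 * ε * ∑ χ ∈ E, C χ = 4 * E.card := by
  classical
  obtain ⟨n₀, hn₀, hinv⟩ := exists_inverting hodd hC hidx
  have hab : ∀ a ∈ A, ∀ b ∈ A, a * b = b * a := by
    intro a ha b hb
    by_cases h1 : b = 1
    · simp [h1]
    · exact Subgroup.mem_centralizer_singleton_iff.1 ((hC b hb h1).symm ▸ ha)
  set N := Subgroup.normalizer (A : Set G) with hN
  haveI : Fintype N := Fintype.ofFinite _
  haveI := Fintype.ofFinite (IrrCharacter N)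
  set H := A.subgroupOf N with hH
  have hKC : KernelCond H := kernelCond fun k hk hk1 => (hC k hk hk1).le
  have hreal : ∀ χ : IrrCharacter G, ∀ x ∈ A, conj ((χ : G → ℂ) x) = (χ : G → ℂ) x := by
    intro χ x hx
    rw [← IsIrrCharacter.inv χ.2, ← hinv x hx, IsIrrCharacter.isClassFunction χ.2]
  have hψreal : ∀ (ψ : IrrCharacter N) (x : N), x ∈ H → conj ((ψ : N → ℂ) x) = (ψ : N → ℂ) x := by
    intro ψ x hx
    rw [← IsIrrCharacter.inv ψ.2,
      show x⁻¹ = (⟨n₀, hn₀⟩ : N) * x * (⟨n₀, hn₀⟩ : N)⁻¹ from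
        Subtype.ext (hinv x (Subgroup.mem_subgroupOf.1 hx)).symm,
      IsIrrCharacter.isClassFunction ψ.2]
  set J : Finset (IrrCharacter N) := univ.filter fun ψ => (ψ : N → ℂ) ∈ charSet H with hJ
  have hJm : ∀ {ψ}, ψ ∈ J ↔ (ψ : N → ℂ) ∈ charSet H := by simp [hJ]
  have h4 : ∀ ψ ∈ J, (ψ : N → ℂ) 1 = 4 := by
    intro ψ hψ
    have h := hJm.1 hψ
    rw [charSet_eq hKC] at h
    obtain ⟨θ, hθ, -, -, he⟩ := h
    rw [he, Frobenius.indFun_one, apply_one_eq_one_of_comm (fun a b => Subtype.ext (Subtype.ext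
      (hab _ (Subgroup.mem_subgroupOf.1 a.2) _ (Subgroup.mem_subgroupOf.1 b.2)))) hθ, hidx,
      mul_one]
    norm_num
  have hoff : ∀ ψ ∈ J, ∀ x : N, x ∉ H → (ψ : N → ℂ) x = 0 :=
    fun ψ hψ x hx => eq_zero_off hKC (hJm.1 hψ) hx
  have htriv : ∀ ψ : IrrCharacter N, ψ ∉ J → ∀ x ∈ H, (ψ : N → ℂ) x = (ψ : N → ℂ) 1 := by
    intro ψ hψ x hx
    by_contra hne
    exact hψ (hJm.2 ⟨ψ.2, x, hx, hne⟩)
  set a := Nat.card A with ha
  have hHcard : Nat.card H = a := Nat.card_congr (Subgroup.subgroupOfEquivOfLe Subgroup.le_normalizer).toEquiv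
  have hNcard : Nat.card N = a * 4 := by rw [← Subgroup.card_mul_index H, hidx, hHcard]
  have hJcard : 4 * J.card + 1 = a := by
    have h := sum_deg_sq hKC (J.image Subtype.val) (by
      ext φ
      simp only [coe_image, Set.mem_image, mem_coe, hJm]
      exact ⟨fun ⟨ψ, hψ, e⟩ => e ▸ hψ, fun h => ⟨⟨φ, h.1⟩, h, rfl⟩⟩)
    rw [sum_image (fun x _ y _ e => Subtype.ext e),
      sum_congr rfl (g := fun _ => 4 ^ 2) (fun ψ hψ => by rw [deg_eq (n := 4) (by simpa using h4 ψ hψ)]),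
      sum_const, smul_eq_mul, hidx, hHcard] at h
    omega
  set Hs : Finset N := univ.filter fun x => x ∈ H ∧ x ≠ 1 with hHs
  have hHsm : ∀ {x}, x ∈ Hs ↔ x ∈ H ∧ x ≠ 1 := by simp [hHs]
  have hHscard : Hs.card + 1 = a := by
    rw [← hHcard, Nat.card_eq_fintype_card, Fintype.card_subtype,
      show Hs = (univ.filter fun x => x ∈ H).erase 1 by ext x; simp [hHsm, and_comm],
      card_erase_add_one (by simp)]
  have hsumHs : ∀ f : N → ℂ, (∀ x, x ∉ H → f x = 0) → ∑ x ∈ Hs, f x = (∑ x, f x) - f 1 := by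
    intro f hf
    rw [← add_sum_erase univ f (mem_univ (1 : N)), add_sub_cancel_left]
    refine sum_subset (fun x hx => by simp [(hHsm.1 hx).2]) fun x hx hx' => hf x fun h => hx' ?_
    exact hHsm.2 ⟨h, (mem_erase.1 hx).1⟩
  let t : IrrCharacter N := ⟨_, isIrrCharacter_one⟩
  have hsumψ : ∀ ψ ∈ J, ∑ x ∈ Hs, (ψ : N → ℂ) x = -4 := by
    intro ψ hψ
    rw [hsumHs _ (hoff ψ hψ), h4 ψ hψ]
    have h := classInner_irrCharacter ψ t
    rw [if_neg (fun e => by
      have := h4 ψ hψ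
      rw [e] at this
      norm_num [t] at this), classInner, mul_eq_zero] at h
    have h' := h.resolve_left (inv_ne_zero (Nat.cast_ne_zero.2 Nat.card_pos.ne'))
    simp only [t, map_one, mul_one] at h'
    rw [h', zero_sub]
  have hsqψ : ∀ ψ ∈ J, ∑ x ∈ Hs, (ψ : N → ℂ) x ^ 2 = 4 * (a : ℂ) - 16 := by
    intro ψ hψ
    rw [hsumHs _ (fun x hx => by rw [hoff ψ hψ x hx]; ring), h4 ψ hψ]
    have h := classInner_self_of_isIrr ψ.2
    rw [classInner, inv_mul_eq_iff_eq_mul₀ (Nat.cast_ne_zero.2 Nat.card_pos.ne'), hNcard] at h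
    rw [sum_congr rfl (g := fun x => (ψ : N → ℂ) x * conj ((ψ : N → ℂ) x)) (fun x _ => by
      by_cases hx : x ∈ H
      · rw [hψreal ψ x hx]; ring
      · rw [hoff ψ hψ x hx]; simp), h]
    push_cast
    ring
  have hsumJ : ∀ x ∈ Hs, ∑ ψ ∈ J, (ψ : N → ℂ) x = -1 := by
    intro x hx
    obtain ⟨hxH, hx1⟩ := hHsm.1 hx
    have h := sum_degree_mul (G := N) x
    have h' := sum_degree_mul (G := N) 1
    rw [if_neg hx1] at h
    rw [if_pos rfl] at h'
    rw [← sum_add_sum_compl J] at h h'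
    have ecompl : ∑ ψ ∈ Jᶜ, (ψ : N → ℂ) 1 * (ψ : N → ℂ) x = ∑ ψ ∈ Jᶜ, (ψ : N → ℂ) 1 * (ψ : N → ℂ) 1 :=
      sum_congr rfl fun ψ hψ => by rw [htriv ψ (mem_compl.1 hψ) x hxH]
    rw [ecompl, sum_congr rfl (g := fun ψ : IrrCharacter N => 4 * (ψ : N → ℂ) x)
      (fun ψ hψ => by rw [h4 ψ hψ]), ← mul_sum] at h
    rw [sum_congr rfl (g := fun _ : IrrCharacter N => (16 : ℂ))
      (fun ψ hψ => by rw [h4 ψ hψ]; norm_num), sum_const, nsmul_eq_mul, hNcard, ← hJcard] at h'
    push_cast at h'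
    linear_combination (1 / 4 : ℂ) * h - (1 / 4 : ℂ) * h'
  -- the exceptional family
  rcases Nat.eq_zero_or_pos J.card with hJ0 | hJpos
  · omega
  haveI : Nonempty {ψ // ψ ∈ J} := by
    obtain ⟨ψ, hψ⟩ := card_pos.1 hJpos
    exact ⟨⟨ψ, hψ⟩⟩
  have hTI : ∀ x : G, x ∉ N → ∀ s ∈ (A : Set G), x⁻¹ * s * x ∈ (A : Set G) → s = 1 := by
    intro x hx s hs hsx
    by_contra hs1
    apply hx
    have h1 : x⁻¹ * s * x ≠ 1 := fun e => hs1 (by
      calc s = x * (x⁻¹ * s * x) * x⁻¹ := by group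
        _ = 1 := by rw [e]; group)
    rw [Subgroup.mem_normalizer_iff]
    intro y
    rw [← hC _ hsx h1, Subgroup.mem_centralizer_singleton_iff, hC _ hsx h1, ← hC s hs hs1,
      Subgroup.mem_centralizer_singleton_iff]
    constructor
    · intro h
      calc x * y * x⁻¹ * s = x * (y * (x⁻¹ * s * x)) * x⁻¹ := by group
        _ = s * (x * y * x⁻¹) := by rw [h]; group
    · intro h
      calc y * (x⁻¹ * s * x) = x⁻¹ * (x * y * x⁻¹ * s) * x := by group
        _ = x⁻¹ * s * x * y := by rw [h]; group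
  obtain ⟨εc, hε, θ, hθ, hθinj, hθeq⟩ := Frobenius.exists_exceptional N (A : Set G) hTI
    (fun ψ : {ψ // ψ ∈ J} => ((ψ : IrrCharacter N) : N → ℂ)) (fun ψ => ψ.1.2)
    (fun a b e => Subtype.ext (Subtype.ext e))
    (fun i j x hx => by
      have hxH : x ∉ H := fun h => hx (Subgroup.mem_subgroupOf.1 h)
      rw [hoff _ i.2 x hxH, hoff _ j.2 x hxH])
    (fun i j => by rw [h4 _ i.2, h4 _ j.2])
  obtain ⟨εi, hεi, rfl⟩ : ∃ εi : ℤ, (εi = 1 ∨ εi = -1) ∧ εc = (εi : ℂ) := by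
    rcases hε with rfl | rfl
    · exact ⟨1, Or.inl rfl, by simp⟩
    · exact ⟨-1, Or.inr rfl, by simp⟩
  set T : {ψ // ψ ∈ J} → IrrCharacter G := fun i => ⟨θ i, hθ i⟩ with hT
  have hTinj : Function.Injective T := fun i j e => hθinj (congrArg Subtype.val e)
  set E : Finset (IrrCharacter G) := univ.image T with hE
  -- every restriction to the torus
  have hdec : ∀ χ : IrrCharacter G, ∃ C k : ℤ,
      (∀ x : N, x ∈ Hs → (χ : G → ℂ) x = C + (εi : ℂ) * ∑ i, (if χ = T i then (1 : ℂ) else 0) * ((i : IrrCharacter N) : N → ℂ) x) ∧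
      (charDegree (χ : G → ℂ) : ℤ) = C + k * a + if χ ∈ E then 4 * εi else 0 := by
    intro χ
    obtain ⟨n, hn, hn'⟩ := BlockLocal.res_eq_sum N χ
    have hdiff : ∀ i j : {ψ // ψ ∈ J}, (n i : ℂ) - n j =
        (εi : ℂ) * ((if χ = T i then 1 else 0) - (if χ = T j then 1 else 0)) := by
      intro i j
      have e : classInner (χ : G → ℂ) (indFun N ((i : IrrCharacter N) : N → ℂ) -
          indFun N ((j : IrrCharacter N) : N → ℂ)) = (n i : ℂ) - n j := by
        rw [classInner_sub_right, Frobenius.classInner_indFun_right N _ _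
          (IsIrrCharacter.isClassFunction χ.2), Frobenius.classInner_indFun_right N _ _
          (IsIrrCharacter.isClassFunction χ.2), hn', hn']
      rw [← e, hθeq i j]
      have e2 : classInner (χ : G → ℂ) ((εi : ℂ) • (θ i - θ j)) =
          conj (εi : ℂ) * classInner (χ : G → ℂ) (θ i - θ j) := by
        rw [classInner_conj_symm, classInner_smul_left, map_mul, ← classInner_conj_symm]
      rw [e2, classInner_sub_right, classInner_irrCharacter χ (T i),
        classInner_irrCharacter χ (T j), map_intCast]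
    obtain ⟨i₀⟩ := ‹Nonempty {ψ // ψ ∈ J}›
    set z : ℤ := (n i₀ : ℤ) - εi * if χ = T i₀ then 1 else 0 with hz
    have hni : ∀ i : {ψ // ψ ∈ J}, (n i : ℂ) = z + (εi : ℂ) * if χ = T i then 1 else 0 := fun i => by
      rw [hz]; push_cast
      linear_combination hdiff i i₀
    set m : ℕ := ∑ ψ ∈ Jᶜ, n ψ * charDegree ((ψ : IrrCharacter N) : N → ℂ) with hm
    have hval : ∀ x : N, x ∈ H → (χ : G → ℂ) x = m + ∑ i : {ψ // ψ ∈ J},
        ((z : ℂ) + (εi : ℂ) * if χ = T i then 1 else 0) * ((i : IrrCharacter N) : N → ℂ) x := by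
      intro x hx
      rw [hn x, ← sum_add_sum_compl J, add_comm]
      congr 1
      · rw [hm]; push_cast
        refine sum_congr rfl fun ψ hψ => ?_
        rw [htriv ψ (mem_compl.1 hψ) x hx]
        congr 1
        obtain ⟨d, -, hd⟩ := exists_degree_of_isIrr ψ.2
        simp [charDegree, hd]
      · rw [← sum_attach J, univ_eq_attach]
        exact sum_congr rfl fun i _ => by rw [← hni i]
    refine ⟨m - z, z, fun x hx => ?_, ?_⟩
    · rw [hval x (hHsm.1 hx).1]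
      simp only [add_mul, sum_add_distrib, mul_assoc, ← mul_sum]
      rw [univ_eq_attach, sum_attach J (fun ψ : IrrCharacter N => (ψ : N → ℂ) x), hsumJ x hx]
      push_cast; ring
    · have h := hval 1 H.one_mem
      rw [Subgroup.coe_one, sum_congr rfl (g := fun i : {ψ // ψ ∈ J} =>
        ((z : ℂ) + (εi : ℂ) * if χ = T i then 1 else 0) * 4) (fun i _ => by rw [h4 _ i.2]),
        ← sum_mul, sum_add_distrib, sum_const, card_univ, Fintype.card_coe, ← mul_sum,
        nsmul_eq_mul] at h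
      have hcnt : ∑ i : {ψ // ψ ∈ J}, (if χ = T i then (1 : ℂ) else 0) = if χ ∈ E then 1 else 0 := by
        split_ifs with hχ
        · obtain ⟨j, -, rfl⟩ := mem_image.1 hχ
          rw [sum_eq_single j (fun i _ hi => if_neg fun e => hi (hTinj e).symm) (by simp), if_pos rfl]
        · exact sum_eq_zero fun i _ => if_neg fun e => hχ (mem_image.2 ⟨i, mem_univ _, e.symm⟩)
      obtain ⟨d, -, hd⟩ := exists_degree_of_isIrr χ.2
      rw [hcnt, hd] at h
      have hdeg : (charDegree (χ : G → ℂ) : ℂ) = d := by simp [charDegree, hd]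
      apply Int.cast_injective (α := ℂ)
      rw [← hJcard]
      push_cast
      rw [hdeg, h]
      split_ifs <;> push_cast <;> ring
  choose C k hCv hCd using hdec
  have hHsA : ∀ x : G, x ∈ A → x ≠ 1 → ∃ hx : x ∈ N, (⟨x, hx⟩ : N) ∈ Hs := fun x hx hx1 =>
    ⟨Subgroup.le_normalizer hx, hHsm.2 ⟨Subgroup.mem_subgroupOf.2 hx, fun e => hx1 (congrArg Subtype.val e)⟩⟩
  have hexc : ∀ (j : {ψ // ψ ∈ J}) (x : N), x ∈ Hs →
      (T j : G → ℂ) x = C (T j) + (εi : ℂ) * ((j : IrrCharacter N) : N → ℂ) x := fun j x hx => by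
    rw [hCv _ x hx, sum_eq_single j (fun i _ hi => by rw [if_neg fun e => hi (hTinj e).symm, zero_mul])
      (by simp), if_pos rfl, one_mul]
  have hnon : ∀ χ : IrrCharacter G, χ ∉ E → ∀ x : N, x ∈ Hs → (χ : G → ℂ) x = C χ := fun χ hχ x hx => by
    rw [hCv χ x hx, sum_eq_zero (fun i _ => by
      rw [if_neg fun e => hχ (mem_image.2 ⟨i, mem_univ _, e.symm⟩), zero_mul]), mul_zero, add_zero]
  have hεsq : (εi : ℂ) ^ 2 = 1 := by rcases hεi with rfl | rfl <;> norm_num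
  have hεne : (εi : ℂ) ≠ 0 := by rcases hεi with rfl | rfl <;> norm_num
  have hdist : ∀ i j : {ψ // ψ ∈ J},
      (∀ x : N, x ∈ Hs → (T i : G → ℂ) x = (T j : G → ℂ) x) → i = j := by
    intro i j hij
    have hs := sum_congr rfl hij
    rw [sum_congr rfl (hexc i), sum_congr rfl (hexc j), sum_add_distrib, sum_add_distrib, ← mul_sum,
      ← mul_sum, hsumψ _ i.2, hsumψ _ j.2, sum_const, sum_const, add_left_inj, nsmul_eq_mul,
      nsmul_eq_mul] at hs
    have hCC := mul_left_cancel₀ (Nat.cast_ne_zero.2 (by omega : Hs.card ≠ 0)) hs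
    refine Subtype.ext (Subtype.ext (funext fun x => ?_))
    by_cases hx : x ∈ H
    · by_cases hx1 : x = 1
      · rw [hx1, h4 _ i.2, h4 _ j.2]
      · have h := hij x (hHsm.2 ⟨hx, hx1⟩)
        rw [hexc i x (hHsm.2 ⟨hx, hx1⟩), hexc j x (hHsm.2 ⟨hx, hx1⟩), hCC, add_right_inj] at h
        exact mul_left_cancel₀ hεne h
    · rw [hoff _ i.2 x hx, hoff _ j.2 x hx]
  have hEcard : E.card = J.card := by
    rw [hE, card_image_of_injective _ hTinj, card_univ, Fintype.card_coe]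
  refine ⟨εi, C, E, hεi, hEcard ▸ hJcard, fun χ hχ x hx hx1 => ?_, fun χ => ⟨k χ, ?_⟩, ?_, ?_, ?_, ?_,
    hreal, ?_⟩
  · obtain ⟨hxN, hm⟩ := hHsA x hx hx1
    exact hnon χ hχ ⟨x, hxN⟩ hm
  · rw [hCd χ]; ring
  · rintro χ hχ χ' hχ'
    obtain ⟨i, -, rfl⟩ := mem_image.1 hχ
    obtain ⟨j, -, rfl⟩ := mem_image.1 hχ'
    have h := congrFun (hθeq i j) 1
    simp only [Pi.sub_apply, Frobenius.indFun_one, h4 _ i.2, h4 _ j.2, sub_self, Pi.smul_apply,
      smul_eq_mul, eq_comm (a := (0 : ℂ)), mul_eq_zero, hεne, false_or, sub_eq_zero] at h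
    simp only [charDegree, T, h]
  · rintro χ hχ χ' hχ' g hg
    obtain ⟨i, -, rfl⟩ := mem_image.1 hχ
    obtain ⟨j, -, rfl⟩ := mem_image.1 hχ'
    have h := congrFun (hθeq i j) g
    rw [Pi.sub_apply, Pi.smul_apply, smul_eq_mul, Pi.sub_apply,
      show indFun N ((i : IrrCharacter N) : N → ℂ) g = indFun N ((j : IrrCharacter N) : N → ℂ) g from by
        simp only [indFun]
        congr 1
        refine sum_congr rfl fun x _ => ?_
        by_cases hxN : x⁻¹ * g * x ∈ N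
        · rw [Frobenius.extendByZero_of_mem N _ hxN, Frobenius.extendByZero_of_mem N _ hxN]
          by_cases hxA : (⟨_, hxN⟩ : N) ∈ H
          · by_cases hg1 : g = 1
            · have e : (⟨x⁻¹ * g * x, hxN⟩ : N) = 1 := Subtype.ext (by simp [hg1])
              rw [e, h4 _ i.2, h4 _ j.2]
            · exfalso
              have hg' : ¬ ∀ k : G, k⁻¹ * g * k ∈ A → g = 1 := fun hh => hg1 (hh x (Subgroup.mem_subgroupOf.1 hxA))
              exact hg' hg
          · rw [hoff _ i.2 _ hxA, hoff _ j.2 _ hxA]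
        · rw [Frobenius.extendByZero_of_not_mem N _ hxN, Frobenius.extendByZero_of_not_mem N _ hxN],
      sub_self, eq_comm, mul_eq_zero] at h
    exact sub_eq_zero.1 (h.resolve_left hεne)
  · rintro χ hχ χ' hχ' hval
    obtain ⟨i, -, rfl⟩ := mem_image.1 hχ
    obtain ⟨j, -, rfl⟩ := mem_image.1 hχ'
    rw [hdist i j fun x hx => hval x (Subgroup.mem_subgroupOf.1 (hHsm.1 hx).1)
      fun e => (hHsm.1 hx).2 (Subtype.ext e)]
  · rintro h2 χ hχ ⟨c, hc⟩
    obtain ⟨i, -, rfl⟩ := mem_image.1 hχ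
    have hψc : ∀ x ∈ Hs, ((i : IrrCharacter N) : N → ℂ) x = (εi : ℂ) * (c - C (T i)) := fun x hx => by
      have h := hc x (Subgroup.mem_subgroupOf.1 (hHsm.1 hx).1) fun e => (hHsm.1 hx).2 (Subtype.ext e)
      rw [hexc i x hx] at h
      rw [← h, add_sub_cancel_left, ← mul_assoc, ← sq, hεsq, one_mul]
    have h1 := hsumψ _ i.2
    have h2' := hsqψ _ i.2
    rw [sum_congr rfl hψc, sum_const, nsmul_eq_mul] at h1
    rw [sum_congr rfl (g := fun _ => ((εi : ℂ) * (c - C (T i))) ^ 2) (fun x hx => by rw [hψc x hx]),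
      sum_const, nsmul_eq_mul] at h2'
    have hbad : ((4 * a - 16 : ℤ) : ℂ) * (Hs.card : ℂ) = ((16 : ℤ) : ℂ) := by
      push_cast
      rw [← h2']
      linear_combination ((Hs.card : ℂ) * ((εi : ℂ) * (c - C (T i))) - 4) * h1
    have hz : (4 * a - 16 : ℤ) * (Hs.card : ℤ) = 16 := by exact_mod_cast hbad
    have : (9 : ℤ) ≤ a := by omega
    nlinarith
  · have hcol : ∀ x : N, x ∈ Hs → ∑ χ : IrrCharacter G, (χ : G → ℂ) x ^ 2 = (a : ℂ) := by
      intro x hx
      have hxA := Subgroup.mem_subgroupOf.1 (hHsm.1 hx).1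
      have h := sum_mul_conj (x : G) (x : G)
      rw [if_pos (IsConj.refl _), hC _ hxA fun e => (hHsm.1 hx).2 (Subtype.ext e)] at h
      rw [← h]
      exact sum_congr rfl fun χ _ => by rw [hreal χ _ hxA, sq]
    have hall : ∑ χ : IrrCharacter G, ∑ x ∈ Hs, (χ : G → ℂ) x ^ 2 = (Hs.card : ℂ) * a := by
      rw [sum_comm, sum_congr rfl hcol, sum_const, nsmul_eq_mul]
    have hterm : ∀ χ : IrrCharacter G, ∑ x ∈ Hs, (χ : G → ℂ) x ^ 2 = (Hs.card : ℂ) * (C χ : ℂ) ^ 2 +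
        if χ ∈ E then -8 * (εi : ℂ) * C χ + (4 * (a : ℂ) - 16) else 0 := by
      intro χ
      split_ifs with hχ
      · obtain ⟨j, -, rfl⟩ := mem_image.1 hχ
        rw [sum_congr rfl (g := fun x : N => (C (T j) : ℂ) ^ 2 + (2 * (εi : ℂ) * C (T j) *
          ((j : IrrCharacter N) : N → ℂ) x + ((j : IrrCharacter N) : N → ℂ) x ^ 2)) (fun x hx => by
            rw [hexc j x hx]
            linear_combination ((j : IrrCharacter N) : N → ℂ) x ^ 2 * hεsq),
          sum_add_distrib, sum_add_distrib, sum_const, nsmul_eq_mul, ← mul_sum, hsumψ _ j.2, hsqψ _ j.2]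
        ring
      · rw [sum_congr rfl (g := fun _ => (C χ : ℂ) ^ 2) (fun x hx => by rw [hnon χ hχ x hx]), sum_const,
          nsmul_eq_mul, add_zero]
    rw [sum_congr rfl (fun χ _ => hterm χ), sum_add_distrib, ← mul_sum, sum_ite_mem, univ_inter,
      sum_add_distrib, sum_const, ← mul_sum, hEcard, nsmul_eq_mul] at hall
    have h4a : (a : ℂ) = 4 * (J.card : ℂ) + 1 := by exact_mod_cast hJcard.symm
    have hHs : (Hs.card : ℂ) = 4 * (J.card : ℂ) := by
      exact_mod_cast (show Hs.card = 4 * J.card by omega)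
    apply Int.cast_injective (α := ℂ)
    rw [hEcard]
    push_cast
    rw [hHs, h4a] at hall
    linear_combination (1 / 4 : ℂ) * hall

end CfsgLib.BrauerCharacters.SzTorus
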